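import Cfsg.Agent.Lib.AltSubconstituent.Perm
import Cfsg.Agent.Lib.ThompsonWielandt.Perm

/-!
Actions of subgroups inducing the alternating group.
-/

set_option autoImplicit false
set_option linter.style.haveILetI false
set_option linter.unusedSectionVars false

namespace Cfsg.Agent.Lib.AltSubconstituent

open Subgroup Equiv
open Cfsg.Agent.Lib.ThompsonWielandt (cm cm_le cm_le_right le_normalizer_cm le_cm)
open Cfsg.Agent.Lib.LocalChar (cj cj_eq_of_mem_nz card_cj mem_cj)
open scoped Nat commutatorElement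

variable {G : Type*} [Group G] [Finite G]

lemma card_mul_relIndex {A B : Subgroup G} (hAB : A ≤ B) :
    Nat.card ↥A * A.relIndex B = Nat.card ↥B := by
  rw [← Nat.card_congr (subgroupOfEquivOfLe hAB).toEquiv]
  exact (A.subgroupOf B).card_mul_index

/-- `K` is the kernel of an action of `X` that induces at least the alternating group. -/
structure Act (X K : Subgroup G) (α : Type*) [Fintype α] [DecidableEq α] where
  hom : ↥X →* Perm α
  ker : hom.ker = K.subgroupOf X
  le : K ≤ X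
  alt : alternatingGroup α ≤ hom.range

variable {α : Type*} [Fintype α] [DecidableEq α] {X K : Subgroup G}

/-- The image of a subgroup. -/
def Act.img (f : Act X K α) (M : Subgroup G) : Subgroup (Perm α) := (M.subgroupOf X).map f.hom

lemma Act.hom_eq_one (f : Act X K α) (x : ↥X) : f.hom x = 1 ↔ (x : G) ∈ K := by
  rw [← MonoidHom.mem_ker, f.ker, mem_subgroupOf]

lemma Act.img_self (f : Act X K α) : f.img X = f.hom.range := by
  rw [Act.img, subgroupOf_self, MonoidHom.range_eq_map]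

lemma Act.img_le_range (f : Act X K α) (M : Subgroup G) : f.img M ≤ f.hom.range :=
  map_le_range _ _

lemma Act.mem_img (f : Act X K α) {M : Subgroup G} {σ : Perm α} :
    σ ∈ f.img M ↔ ∃ x : ↥X, (x : G) ∈ M ∧ f.hom x = σ := Iff.rfl

lemma Act.img_eq_bot (f : Act X K α) {M : Subgroup G} (hM : M ≤ X) : f.img M = ⊥ ↔ M ≤ K := by
  rw [Act.img, Subgroup.map_eq_bot_iff, f.ker]
  exact ⟨fun h x hx => h (show (⟨x, hM hx⟩ : ↥X) ∈ M.subgroupOf X from hx), fun h _ hx => h hx⟩

lemma Act.img_le_nz (f : Act X K α) {R M : Subgroup G} (hM : M ≤ X)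
    (hn : R ≤ normalizer (M : Set G)) : f.img R ≤ normalizer (f.img M : Set (Perm α)) := by
  refine (map_mono (f := f.hom) ?_).trans (le_normalizer_map f.hom)
  exact le_trans (comap_mono (f := X.subtype) hn) (le_normalizer_comap X.subtype)

lemma Act.dich (f : Act X K α) (hn : 5 ≤ Nat.card α) {M : Subgroup G} (hM : M ≤ X)
    (hnM : X ≤ normalizer (M : Set G)) : M ≤ K ∨ alternatingGroup α ≤ f.img M := by
  rcases normal_dichotomy hn f.alt (f.img_le_range M) (f.img_self ▸ f.img_le_nz hM hnM) with h | h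
  · exact Or.inl ((f.img_eq_bot hM).1 h)
  · exact Or.inr h

lemma Act.card_img (f : Act X K α) {M : Subgroup G} (hM : M ≤ X) :
    Nat.card ↥(f.img M) * Nat.card ↥(M ⊓ K) = Nat.card ↥M := by
  rw [Act.img, ← relIndex_ker, f.ker, relIndex_subgroupOf hM, ← inf_relIndex_left, mul_comm]
  exact card_mul_relIndex inf_le_left

lemma Act.card_range (f : Act X K α) : Nat.card ↥f.hom.range * Nat.card ↥K = Nat.card ↥X := by
  have := f.card_img (le_refl X)
  rwa [f.img_self, inf_eq_right.2 f.le] at this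

lemma Act.img_commutator (f : Act X K α) {M : Subgroup G} (hM : M ≤ X) :
    f.img ⁅M, M⁆ = ⁅f.img M, f.img M⁆ := by
  rw [Act.img, Act.img, ← map_commutator]
  congr 1
  have h1 : (⁅M.subgroupOf X, M.subgroupOf X⁆).map X.subtype = ⁅M, M⁆ := by
    rw [map_commutator, map_subgroupOf_eq_of_le hM]
  rw [← h1]
  exact comap_map_eq_self_of_injective X.subtype_injective _

/-- The action on cosets. -/
noncomputable def cosetAct {M Y : Subgroup G} [Fintype (↥M ⧸ Y.subgroupOf M)]
    [DecidableEq (↥M ⧸ Y.subgroupOf M)]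
    (hcard : (Y.relIndex M)! ≤ 2 * (cm M Y).relIndex M) :
    Act M (cm M Y) (↥M ⧸ Y.subgroupOf M) where
  hom := MulAction.toPermHom ↥M (↥M ⧸ Y.subgroupOf M)
  ker := by
    rw [← normalCore_eq_ker]
    exact (comap_map_eq_self_of_injective M.subtype_injective _).symm
  le := cm_le _ _
  alt := by
    refine Perm.alternatingGroup_le_of_index_le_two ?_
    have h1 : Nat.card ↥(MulAction.toPermHom ↥M (↥M ⧸ Y.subgroupOf M)).range = (cm M Y).relIndex M := by
      rw [← index_ker, ← normalCore_eq_ker, relIndex]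
      exact congrArg Subgroup.index (comap_map_eq_self_of_injective M.subtype_injective _).symm
    have h2 := (MulAction.toPermHom ↥M (↥M ⧸ Y.subgroupOf M)).range.card_mul_index
    rw [h1, Nat.card_perm, ← index_eq_card] at h2
    change _ = (Y.relIndex M)! at h2
    by_contra h3
    have h4 : 0 < (cm M Y).relIndex M := Nat.pos_of_ne_zero index_ne_zero_of_finite
    have := Nat.mul_le_mul_left ((cm M Y).relIndex M) (show 3 ≤ _ from not_le.1 h3)
    omega

lemma cosetAct_stab {M Y : Subgroup G} [Fintype (↥M ⧸ Y.subgroupOf M)]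
    [DecidableEq (↥M ⧸ Y.subgroupOf M)]
    (hcard : (Y.relIndex M)! ≤ 2 * (cm M Y).relIndex M) (x : ↥M) :
    (cosetAct hcard).hom x ((1 : ↥M) : ↥M ⧸ Y.subgroupOf M) = ((1 : ↥M) : ↥M ⧸ Y.subgroupOf M) ↔
      (x : G) ∈ Y := by
  show ((x * 1 : ↥M) : ↥M ⧸ Y.subgroupOf M) = _ ↔ _
  rw [QuotientGroup.eq, mul_one, mul_one, inv_mem_iff, mem_subgroupOf]

section res

variable {Δ : Type*} [Fintype Δ] [DecidableEq Δ] {M L Y : Subgroup G}

lemma fix_iff {σ : Perm Δ} {b : Δ} (h : σ b = b) (i : Δ) : σ i ≠ b ↔ i ≠ b :=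
  not_congr ⟨fun e => σ.injective (e.trans h.symm), fun e => e ▸ h⟩

/-- Restriction to the stabilizer of a point. -/
def Act.res (f : Act M L Δ) (b : Δ) (hYM : Y ≤ M) (hLY : L ≤ Y)
    (stab : ∀ x : ↥M, f.hom x b = b ↔ (x : G) ∈ Y) : Act Y L {i : Δ // i ≠ b} where
  hom :=
    { toFun := fun x => (f.hom (inclusion hYM x)).subtypePerm (fix_iff ((stab _).2 x.2))
      map_one' := by ext; simp
      map_mul' := fun x y => Equiv.ext fun i => Subtype.ext (by simp only [map_mul]; rfl) }
  ker := by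
    ext x
    rw [MonoidHom.mem_ker, mem_subgroupOf]
    change (f.hom (inclusion hYM x)).subtypePerm (fix_iff ((stab _).2 x.2)) = 1 ↔ _
    rw [show ((x : G) ∈ L) = ((inclusion hYM x : G) ∈ L) from rfl, ← f.hom_eq_one]
    constructor
    · intro h
      ext i
      rcases eq_or_ne i b with rfl | hi
      · exact (stab _).2 x.2
      · have := congrArg (fun s : Perm {i : Δ // i ≠ b} => (s ⟨i, hi⟩ : Δ)) h
        simpa using this
    · intro h
      ext i
      simp [h]
  le := hLY
  alt := by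
    intro s hs
    have h1 : Perm.ofSubtype s ∈ alternatingGroup Δ := by
      rw [Perm.mem_alternatingGroup, Perm.sign_ofSubtype]; exact hs
    obtain ⟨x, hx⟩ := f.alt h1
    have h2 : (x : G) ∈ Y := (stab x).1 (by rw [hx, Perm.ofSubtype_apply_of_not_mem]; simp)
    refine ⟨⟨x, h2⟩, ?_⟩
    ext i
    show (f.hom x) i.1 = _
    rw [hx, Perm.ofSubtype_apply_coe]

lemma Act.res_range (f : Act M L Δ) (b : Δ) (hYM : Y ≤ M) (hLY : L ≤ Y)
    (stab : ∀ x : ↥M, f.hom x b = b ↔ (x : G) ∈ Y) :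
    (f.hom.range = alternatingGroup Δ → (f.res b hYM hLY stab).hom.range = alternatingGroup _) ∧
    (f.hom.range = ⊤ → (f.res b hYM hLY stab).hom.range = ⊤) := by
  constructor
  · intro h
    refine le_antisymm ?_ (Act.alt _)
    rintro _ ⟨x, rfl⟩
    have h1 : f.hom (inclusion hYM x) ∈ alternatingGroup Δ := h ▸ ⟨_, rfl⟩
    rw [Perm.mem_alternatingGroup] at h1 ⊢
    rw [← h1]
    refine Perm.sign_subtypePerm _ (fix_iff ((stab _).2 x.2)) fun i hi e => hi ?_
    rw [e]
    exact (stab _).2 x.2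
  · intro h
    rw [eq_top_iff]
    intro s _
    obtain ⟨x, hx⟩ := h.ge (mem_top (Perm.ofSubtype s))
    have h2 : (x : G) ∈ Y := (stab x).1 (by rw [hx, Perm.ofSubtype_apply_of_not_mem]; simp)
    refine ⟨⟨x, h2⟩, ?_⟩
    ext i
    show (f.hom x) i.1 = _
    rw [hx, Perm.ofSubtype_apply_coe]

lemma exists_alt_map (h5 : 4 ≤ Nat.card Δ) (i j k : Δ) (hij : i ≠ j) (hik : i ≠ k) :
    ∃ s ∈ alternatingGroup Δ, s i = i ∧ s j = k := by
  rcases eq_or_ne j k with rfl | hjk
  · exact ⟨1, one_mem _, rfl, rfl⟩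
  obtain ⟨l, hl⟩ : ∃ l, l ∉ ({i, j, k} : Finset Δ) := by
    by_contra hc
    push Not at hc
    have h1 : (Finset.univ : Finset Δ).card ≤ ({i, j, k} : Finset Δ).card :=
      Finset.card_le_card fun x _ => hc x
    have h2 := Finset.card_le_three (a := i) (b := j) (c := k)
    rw [Finset.card_univ, ← Nat.card_eq_fintype_card] at h1
    omega
  simp only [Finset.mem_insert, Finset.mem_singleton, not_or] at hl
  refine ⟨swap k l * swap j l, ?_, ?_, ?_⟩
  · rw [Perm.mem_alternatingGroup, map_mul, Perm.sign_swap (Ne.symm hl.2.2),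
      Perm.sign_swap (Ne.symm hl.2.1)]
    rfl
  · rw [Perm.mul_apply, swap_apply_of_ne_of_ne hij (Ne.symm hl.1),
      swap_apply_of_ne_of_ne hik (Ne.symm hl.1)]
  · rw [Perm.mul_apply, swap_apply_left, swap_apply_right]

lemma exists_alt_move (h5 : 4 ≤ Nat.card Δ) (j k : Δ) : ∃ s ∈ alternatingGroup Δ, s j = k := by
  obtain ⟨i, hi⟩ : ∃ i, i ∉ ({j, k} : Finset Δ) := by
    by_contra hc
    push Not at hc
    have h1 : (Finset.univ : Finset Δ).card ≤ ({j, k} : Finset Δ).card :=
      Finset.card_le_card fun x _ => hc x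
    have h2 := Finset.card_le_two (a := j) (b := k)
    rw [Finset.card_univ, ← Nat.card_eq_fintype_card] at h1
    omega
  simp only [Finset.mem_insert, Finset.mem_singleton, not_or] at hi
  obtain ⟨s, h1, -, h2⟩ := exists_alt_map h5 i j k hi.1 hi.2
  exact ⟨s, h1, h2⟩

end res

/-- The common part of all conjugates lies in the core. -/
lemma conj_inter_le_cm {H Q : Subgroup G} {x : G} (hQ : Q ≤ H)
    (hx : ∀ h ∈ H, x ∈ cj h Q) : x ∈ cm H Q := by
  have h1 : x ∈ Q := by simpa [mem_cj] using hx 1 (one_mem _)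
  refine ⟨⟨x, hQ h1⟩, fun b => ?_, rfl⟩
  have := hx (b : G)⁻¹ (inv_mem b.2)
  rw [mem_cj, inv_inv] at this
  show (b : G) * x * (b : G)⁻¹ ∈ Q
  exact this

/-- There is no alternating section in a subdirect product of small groups. -/
lemma no_section {Δ : Type*} [Fintype Δ] [DecidableEq Δ] (hn : 5 ≤ Nat.card Δ)
    {M U B Q : Subgroup G} (hUB : U ≤ B) (hB : M ≤ normalizer (B : Set G))
    (hQn : B ≤ normalizer (Q : Set G)) (hQB : Q ≤ B)
    (hsmall : Q.relIndex B < Nat.card ↥(alternatingGroup Δ))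
    (hD : ∀ x, (∀ h ∈ M, x ∈ cj h Q) → x = 1) (ψ : ↥U →* Perm Δ) :
    ¬ alternatingGroup Δ ≤ ψ.range := by
  intro hψ
  have hBn : ∀ h : ↥M, B ≤ normalizer (cj (h : G) Q : Set G) := fun h => by
    have h1 := (map_mono (f := (MulAut.conj (h : G)).toMonoidHom) hQn).trans (le_normalizer_map _)
    change cj (h : G) B ≤ _ at h1
    rw [cj_eq_of_mem_nz (hB h.2)] at h1
    exact h1
  haveI : ∀ h : ↥M, ((cj (h : G) Q).subgroupOf U).Normal := fun h =>
    normal_subgroupOf_of_le_normalizer (hUB.trans (hBn h))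
  obtain ⟨h, hh⟩ := exists_large_index hn ψ hψ (fun h : ↥M => (cj (h : G) Q).subgroupOf U) (by
    refine (Subgroup.eq_bot_iff_forall _).2 fun x hx => Subtype.ext (hD x fun h hm => ?_)
    exact mem_iInf.1 hx ⟨h, hm⟩)
  have h1 : (cj (h : G) Q).relIndex U ≤ (cj (h : G) Q).relIndex B :=
    relIndex_le_of_le_right hUB index_ne_zero_of_finite
  have hle : cj (h : G) Q ≤ B := cj_eq_of_mem_nz (hB h.2) ▸ map_mono hQB
  have h2 : (cj (h : G) Q).relIndex B = Q.relIndex B := by
    refine mul_left_cancel₀ (Nat.card_pos (α := ↥Q)).ne' ?_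
    rw [card_mul_relIndex hQB]
    conv_lhs => rw [← card_cj (h : G) Q]
    exact card_mul_relIndex hle
  rw [relIndex] at h1
  omega

end Cfsg.Agent.Lib.AltSubconstituent
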