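import Cfsg.Agent.Lib.AltSubconstituent.Act

/-!
Two conjugate subgroups acting as the alternating group on the cosets of their intersection:
the kernels have trivial intersection.
-/

set_option autoImplicit false
set_option linter.style.haveILetI false
set_option linter.unusedSectionVars false

namespace Cfsg.Agent.Lib.AltSubconstituent

open Subgroup Equiv
open Cfsg.Agent.Lib.ThompsonWielandt (cm)
open Cfsg.Agent.Lib.LocalChar (cj cj_cj cj_eq_of_mem_nz card_cj mem_cj conj_mem_cj cj_commutator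
  mem_nz_of_cj_eq)
open scoped Nat commutatorElement

variable {G : Type*} [Group G] [Finite G] {Δ α : Type*} [Fintype Δ] [DecidableEq Δ] [Fintype α]
  [DecidableEq α]

/-- Transport by conjugation. -/
def Act.conj {M K : Subgroup G} (f : Act M K α) (g : G) : Act (cj g M) (cj g K) α where
  hom :=
    { toFun := fun x => f.hom ⟨g⁻¹ * x * g, mem_cj.1 x.2⟩
      map_one' := by
        rw [← map_one f.hom]; congr 1; ext; simp
      map_mul' := fun x y => by
        rw [← map_mul]; congr 1; ext; simp [mul_assoc] }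
  ker := by
    ext x
    rw [MonoidHom.mem_ker, mem_subgroupOf]
    exact (f.hom_eq_one _).trans mem_cj.symm
  le := map_mono f.le
  alt := fun s hs => by
    obtain ⟨x, hx⟩ := f.alt hs
    refine ⟨⟨g * x * g⁻¹, conj_mem_cj x.2⟩, ?_⟩
    rw [← hx]
    show f.hom _ = f.hom x
    congr 1; ext; simp [mul_assoc]

lemma commutator_nz {H K : Subgroup G} (h : H ≤ normalizer (K : Set G)) :
    H ≤ normalizer (⁅K, K⁆ : Subgroup G) := fun x hx =>
  mem_nz_of_cj_eq (by rw [cj_commutator, cj_eq_of_mem_nz (h hx)])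

lemma card_alt_lt (hn : 3 ≤ Nat.card Δ) :
    (Nat.card Δ - 1)! < Nat.card ↥(alternatingGroup Δ) := by
  have h2 := two_mul_card (α := Δ) (by omega)
  rw [← Nat.mul_factorial_pred (show Nat.card Δ ≠ 0 by omega)] at h2
  have h3 := Nat.mul_le_mul_right ((Nat.card Δ - 1)!) hn
  have := Nat.factorial_pos (Nat.card Δ - 1)
  omega

/-- The kernel of the action on the other side. -/
theorem ker_eq (hd6 : 6 ≤ Nat.card Δ) (hα : Nat.card α + 1 = Nat.card Δ) {N X L L' K : Subgroup G}
    (fN : Act N L' Δ) (fK : Act X K α) (hXN : X ≤ N) (hLX : L ≤ X)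
    (hidx : X.relIndex N = Nat.card Δ) (hLn : N ≤ normalizer (L : Set G))
    (hKn : X ≤ normalizer (K : Set G)) (hL'n : N ≤ normalizer (L' : Set G))
    (hmax : ∀ U, U ≤ X → N ≤ normalizer (U : Set G) → U ≤ L)
    (hbound : L.relIndex N ≤ (Nat.card Δ)!)
    (hsec : ∀ ψ : ↥(L ⊓ K) →* Perm Δ, ¬ alternatingGroup Δ ≤ ψ.range) : L = L' := by
  have hLN : L ≤ N := hLX.trans hXN
  have hA2 := two_mul_card (α := Δ) (by omega)
  rcases fN.dich (by omega) hLN hLn with hle | hbig
  · by_cases hX : L' ≤ X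
    · exact le_antisymm hle (hmax L' hX hL'n)
    exfalso
    have c1 := fN.card_range
    have c2 := fN.card_img hXN
    have c3 := card_mul_relIndex hXN
    rw [hidx] at c3
    have c4 := card_mul_relIndex hLN
    have c5 := card_le_of_le fN.alt
    have c6 : Nat.card ↥fN.hom.range ≤ (Nat.card Δ)! := by
      rw [← Nat.card_perm]; exact card_le_card_group _
    have c7 : Nat.card ↥L ≤ Nat.card ↥(X ⊓ L') := card_le_of_le (le_inf hLX hle)
    have c8 : 2 * Nat.card ↥(X ⊓ L') ≤ Nat.card ↥L' := by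
      have h1 := card_mul_relIndex (inf_le_right : X ⊓ L' ≤ L')
      have h2 : 2 ≤ (X ⊓ L').relIndex L' := by
        rcases Nat.lt_or_ge ((X ⊓ L').relIndex L') 2 with h | h
        · exfalso
          have h0 : (X ⊓ L').relIndex L' ≠ 0 := index_ne_zero_of_finite
          exact hX ((relIndex_eq_one.1 (by omega : (X ⊓ L').relIndex L' = 1)).trans inf_le_left)
        · exact h
      rw [← h1, mul_comm]
      exact Nat.mul_le_mul_left _ h2
    have c9 : Nat.card ↥L' ≤ 2 * Nat.card ↥L := by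
      have h1 : Nat.card ↥fN.hom.range * Nat.card ↥L' ≤ (Nat.card Δ)! * Nat.card ↥L := by
        rw [c1, ← c4, mul_comm _ (L.relIndex N)]
        exact Nat.mul_le_mul_right _ hbound
      rw [← hA2] at h1
      have h2 : Nat.card ↥(alternatingGroup Δ) * Nat.card ↥L' ≤
          Nat.card ↥(alternatingGroup Δ) * (2 * Nat.card ↥L) := by
        refine (Nat.mul_le_mul_right _ c5).trans (h1.trans_eq (by ring))
      exact Nat.le_of_mul_le_mul_left h2 Nat.card_pos
    -- the image of `X` has index at most `card Δ / 2`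
    have c10 : Nat.card ↥fN.hom.range * 2 = Nat.card ↥(fN.img X) * Nat.card Δ := by
      have e1 : Nat.card ↥(X ⊓ L') = Nat.card ↥L := by omega
      have e2 : Nat.card ↥L' = 2 * Nat.card ↥L := by omega
      rw [← c1, ← c2, e1, e2] at c3
      refine Nat.eq_of_mul_eq_mul_right (Nat.card_pos (α := ↥L)) ?_
      rw [mul_right_comm (Nat.card ↥(fN.img X)) (Nat.card Δ), c3]
      ring
    have c11 := card_mul_relIndex (fN.img_le_range X)
    have c12 : (fN.img X).relIndex fN.hom.range * 2 = Nat.card Δ := by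
      refine Nat.eq_of_mul_eq_mul_left (Nat.card_pos (α := ↥(fN.img X))) ?_
      rw [← mul_assoc, c11, c10]
    have c13 := card_le_of_le (alt_le_of_relIndex_lt (by omega) fN.alt (U := fN.img X) (by omega))
    have c14 := Nat.mul_le_mul_right (Nat.card Δ) c13
    have c15 : 6 * Nat.card ↥(alternatingGroup Δ) ≤ Nat.card Δ * Nat.card ↥(alternatingGroup Δ) :=
      Nat.mul_le_mul_right _ hd6
    rw [mul_comm (Nat.card ↥(alternatingGroup Δ))] at c14
    have := Nat.card_pos (α := ↥(alternatingGroup Δ))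
    omega
  · exfalso
    have hQn : fN.img L ≤ normalizer (fN.img (L ⊓ K) : Set (Perm Δ)) := by
      refine fN.img_le_nz (inf_le_left.trans hLN) ?_
      exact le_trans (le_inf le_normalizer (hLX.trans hKn)) inf_normalizer_le_normalizer_inf
    rcases normal_dichotomy (by omega) hbig (map_mono (comap_mono inf_le_left)) hQn with h | h
    · replace h : L ⊓ K ≤ L' := (fN.img_eq_bot (inf_le_left.trans hLN)).1 h
      have c1 := fN.card_img hLN
      have c2 := fK.card_img hLX
      have c3 : Nat.card ↥(L ⊓ K) ≤ Nat.card ↥(L ⊓ L') := card_le_of_le (le_inf inf_le_left h)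
      have c4 := card_le_of_le hbig
      have c5 : Nat.card ↥(fK.img L) ≤ (Nat.card Δ - 1)! := by
        rw [show Nat.card Δ - 1 = Nat.card α by omega, ← Nat.card_perm]
        exact card_le_card_group _
      have c6 := card_alt_lt (Δ := Δ) (by omega)
      have c7 : Nat.card ↥(fN.img L) * Nat.card ↥(L ⊓ K) ≤ Nat.card ↥(fK.img L) * Nat.card ↥(L ⊓ K) := by
        rw [c2, ← c1]; exact Nat.mul_le_mul_left _ c3
      have := Nat.le_of_mul_le_mul_right c7 Nat.card_pos
      omega
    · refine hsec (fN.hom.comp (inclusion (inf_le_left.trans hLN))) ?_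
      rw [MonoidHom.range_comp, inclusion_range]
      exact h

/-- The kernels meet trivially when the second core is trivial. -/
theorem inf_eq_bot (hd6 : 6 ≤ Nat.card Δ) (hα : 5 ≤ Nat.card α) {H X K L : Subgroup G} {g : G}
    (fH : Act H K Δ) (b0 : Δ) (stab : ∀ x : ↥H, fH.hom x b0 = b0 ↔ (x : G) ∈ X)
    (fK : Act X K α) (fL : Act X L α) (hXH : X ≤ H) (hKn : H ≤ normalizer (K : Set G))
    (hLn : X ≤ normalizer (L : Set G)) (hg : cj g K = L) (hLK : ¬ L ≤ K) (hKL : ¬ K ≤ L)
    (rad : ∀ (t : ℕ), t.Prime → ∀ U : Subgroup G, U ≤ X → X ≤ normalizer (U : Set G) →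
      IsPGroup t ↥U → U = ⊥)
    (hD : ∀ x, (∀ h ∈ H, x ∈ cj h (K ⊓ L)) → x = 1) : K ⊓ L = ⊥ := by
  classical
  have hKX : K ≤ X := fK.le
  have hLX : L ≤ X := fL.le
  haveI := alternatingGroup.isSimpleGroup (α := α) hα
  set P0 := ⁅K, K⁆ with hP0
  have hP0K : P0 ≤ K := commutator_le_self K
  have hPn : H ≤ normalizer (P0 : Set G) := commutator_nz hKn
  have hP0X : P0 ≤ X := hP0K.trans hKX
  have himg : fL.img P0 = alternatingGroup α := by
    rw [hP0, fL.img_commutator hKX]
    exact commutator_alt hα ((fL.dich hα hKX (hXH.trans hKn)).resolve_left hKL)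
  have hex : ∀ i : Δ, ∃ x : ↥H, fH.hom x b0 = i := fun i => by
    obtain ⟨s, hs, hsi⟩ := exists_alt_move (by omega : 4 ≤ Nat.card Δ) b0 i
    obtain ⟨x, rfl⟩ := fH.alt hs
    exact ⟨x, hsi⟩
  choose hh hhi using hex
  have hcP : ∀ (i : Δ) (p : ↥P0), (hh i : G)⁻¹ * p * hh i ∈ X := fun i p =>
    hP0X ((mem_normalizer_iff'.1 (hPn (hh i).2) _).2 (by simpa [mul_assoc] using p.2))
  have hcP0 : ∀ (i : Δ) (p : ↥P0), (hh i : G)⁻¹ * p * hh i ∈ P0 := fun i p =>
    (mem_normalizer_iff'.1 (hPn (hh i).2) _).2 (by simpa [mul_assoc] using p.2)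
  let f : Δ → ↥P0 →* ↥(alternatingGroup α) := fun i =>
    { toFun := fun p => ⟨fL.hom ⟨_, hcP i p⟩, himg ▸ ⟨⟨_, hcP i p⟩, hcP0 i p, rfl⟩⟩
      map_one' := by
        refine Subtype.ext ?_
        show fL.hom _ = 1
        rw [← map_one fL.hom]; congr 1; ext; simp
      map_mul' := fun p q => by
        refine Subtype.ext ?_
        show fL.hom _ = fL.hom _ * fL.hom _
        rw [← map_mul]; congr 1; ext; simp [mul_assoc] }
  have hker : ∀ (i : Δ) (p : ↥P0), p ∈ (f i).ker ↔ (hh i : G)⁻¹ * p * hh i ∈ L := fun i p => by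
    rw [MonoidHom.mem_ker, Subtype.ext_iff]
    exact fL.hom_eq_one _
  have surj : ∀ i, Function.Surjective (f i) := by
    intro i s
    obtain ⟨x, hx, hxs⟩ : ∃ x : ↥X, (x : G) ∈ P0 ∧ fL.hom x = s.1 := himg.ge s.2
    have h1 : (hh i : G) * x * (hh i : G)⁻¹ ∈ P0 := (mem_normalizer_iff.1 (hPn (hh i).2) _).1 hx
    refine ⟨⟨_, h1⟩, Subtype.ext ?_⟩
    show fL.hom _ = _
    rw [← hxs]; congr 1; ext; simp [mul_assoc]
  -- conjugation permutes the kernels
  have hequiv : ∀ (y : ↥H) (i : Δ) (p q : ↥P0), (q : G) = y * p * (y : G)⁻¹ →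
      (q ∈ (f (fH.hom y i)).ker ↔ p ∈ (f i).ker) := by
    intro y i p q hq
    rw [hker, hker, hq]
    set z := (hh (fH.hom y i))⁻¹ * y * hh i with hz
    have hzX : (z : G) ∈ X := by
      refine (stab z).1 ?_
      rw [hz, map_mul, map_mul, map_inv, Perm.mul_apply, Perm.mul_apply, hhi, Perm.inv_eq_iff_eq, hhi]
    have e : (hh (fH.hom y i) : G)⁻¹ * ((y : G) * p * (y : G)⁻¹) * hh (fH.hom y i) =
        z * ((hh i : G)⁻¹ * p * hh i) * (z : G)⁻¹ := by
      simp [hz, mul_assoc]
    rw [e]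
    exact (mem_normalizer_iff.1 (hLn hzX) _).symm
  have hb0 : (hh b0 : G) ∈ X := (stab _).1 (hhi b0)
  have hkerb : ∀ p : ↥P0, p ∈ (f b0).ker ↔ (p : G) ∈ L := fun p => by
    rw [hker]
    exact (mem_normalizer_iff''.1 (hLn hb0) _).symm
  have hinj : ⨅ i, (f i).ker = ⊥ := by
    refine (Subgroup.eq_bot_iff_forall _).2 fun p hp => Subtype.ext (hD p fun h hh' => ?_)
    rw [mem_cj]
    refine ⟨(mem_normalizer_iff'.1 (hKn hh') _).2 (by simpa [mul_assoc] using hP0K p.2), ?_⟩
    have hp' : (h⁻¹ : G) * p * h ∈ P0 :=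
      (mem_normalizer_iff'.1 (hPn hh') _).2 (by simpa [mul_assoc] using p.2)
    refine (hkerb ⟨_, hp'⟩).1 ((hequiv ⟨h, hh'⟩ b0 ⟨_, hp'⟩ p ?_).1 (mem_iInf.1 hp _))
    simp [mul_assoc]
  by_cases hdist : ∀ i j, i ≠ j → (f i).ker ≠ (f j).ker
  · exfalso
    have hnc := not_comm_alt (α := α) hα
    let L0 := ⁅L, L⁆
    have hL0L : L0 ≤ L := commutator_le_self L
    have hL0 : cj g P0 = L0 := by rw [hP0, cj_commutator, hg]
    have hL0H : L0 ≤ H := (hL0L.trans hLX).trans hXH
    have hcL : ∀ x : ↥L0, g⁻¹ * x * g ∈ P0 := fun x => mem_cj.1 (hL0.ge x.2)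
    let c : ↥L0 →* ↥P0 :=
      { toFun := fun x => ⟨_, hcL x⟩
        map_one' := Subtype.ext (by simp)
        map_mul' := fun x y => Subtype.ext (by simp [mul_assoc]) }
    have hcs : Function.Surjective c := fun p =>
      ⟨⟨g * p * g⁻¹, hL0 ▸ conj_mem_cj p.2⟩, Subtype.ext (by simp [c, mul_assoc])⟩
    have hci : Function.Injective c := fun x y e => by
      have e1 := congrArg Subtype.val e
      exact Subtype.ext (by simpa [c, mul_assoc] using e1)
    have hker' : ∀ i, ((f i).comp c).ker = (f i).ker.comap c := fun i => (MonoidHom.comap_ker _ _).symm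
    have dist' : ∀ i j, i ≠ j → ((f i).comp c).ker ≠ ((f j).comp c).ker := fun i j hij e => by
      rw [hker', hker'] at e
      exact hdist i j hij (comap_injective hcs e)
    have hinj' : ⨅ i, ((f i).comp c).ker = ⊥ := by
      simp only [hker', ← comap_iInf, hinj]
      rwa [MonoidHom.comap_bot, MonoidHom.ker_eq_bot_iff]
    let W : Δ → Subgroup G := fun i => (others f i).map P0.subtype
    have hWP : ∀ i, W i ≤ P0 := fun i => map_subtype_le _
    have hWn : ∀ i, P0 ≤ normalizer (W i : Set G) := fun i =>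
      Cfsg.Agent.Lib.Components.MaxLocal.le_normalizer_map_subtype _
    have hWL : ∀ i, i ≠ b0 → W i ≤ L0 := by
      intro i hi
      have h1 : others f i ≤ (f b0).ker := iInf_le_of_le ⟨b0, Ne.symm hi⟩ le_rfl
      have hWL' : W i ≤ L := by
        rintro _ ⟨p, hp, rfl⟩
        exact (hkerb p).1 (h1 hp)
      have h2 : others f i ≤ ⁅others f i, others f i⁆ := by
        have h3 : (⁅others f i, others f i⁆).map (f i) = ⊤ := by
          rw [map_commutator, others_map hnc surj hdist i]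
          exact commutator_alternatingGroup_eq_top hα
        intro p hp
        obtain ⟨q, hq, hqp⟩ := h3.ge (mem_top (f i p))
        have hq' : q ∈ others f i := commutator_le_self _ hq
        have h4 := others_inj hinj i (mul_mem (inv_mem hq') hp) (by
          rw [map_mul, map_inv, hqp, inv_mul_cancel])
        rwa [← inv_mul_eq_one.1 h4]
      refine (map_mono (f := P0.subtype) h2).trans ?_
      rw [map_commutator]
      exact commutator_mono hWL' hWL'
    have hWcard : ∀ i, Nat.card ↥(W i) = Nat.card ↥(alternatingGroup α) := fun i => by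
      rw [← others_card hnc surj hdist hinj i]
      exact card_map_of_injective P0.subtype_injective
    have hWnorm : ∀ i, i ≠ b0 → L0 ≤ normalizer (W i : Set G) := by
      intro i hi
      haveI : (P0.subgroupOf L0).Normal := normal_subgroupOf_of_le_normalizer (hL0H.trans hPn)
      have h1 : ((W i).subgroupOf L0).Normal := by
        refine normal_of_subnormal hnc (f := fun i => (f i).comp c)
          (fun i => (surj i).comp hcs) dist' hinj' (M := P0.subgroupOf L0) (comap_mono (hWP i)) ?_ ?_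
        · exact le_trans (comap_mono (f := L0.subtype) (hWn i)) (le_normalizer_comap L0.subtype)
        · rw [Nat.card_congr (subgroupOfEquivOfLe (hWL i hi)).toEquiv, hWcard]
      exact (normal_subgroupOf_iff_le_normalizer (hWL i hi)).1 h1
    have hfix : ∀ x : ↥H, (x : G) ∈ L0 → fH.hom x = 1 := by
      intro x hx
      ext i
      rw [Perm.coe_one, id_eq]
      rcases eq_or_ne i b0 with rfl | hi
      · exact (stab x).2 (hLX (hL0L hx))
      by_contra hne
      obtain ⟨p, hp, hp1⟩ := (Subgroup.bot_or_exists_ne_one (others f i)).resolve_left fun e => by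
        have := others_card hnc surj hdist hinj i
        rw [e, card_bot] at this
        have := two_mul_card (α := α) (by omega)
        have := Nat.self_le_factorial (Nat.card α)
        omega
      have hpi : p ∉ (f i).ker := fun h => hp1 (others_inj hinj i hp h)
      have hm : (x : G) * p * (x : G)⁻¹ ∈ W i :=
        (mem_normalizer_iff.1 (hWnorm i hi hx) _).1 ⟨p, hp, rfl⟩
      obtain ⟨q, hq, hqe⟩ := hm
      refine hpi ((hequiv x i p q hqe).1 ?_)
      exact (iInf_le (fun j : {j // j ≠ i} => (f j.1).ker) ⟨fH.hom x i, hne⟩) hq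
    have hL0K : L0 ≤ K := fun x hx => (fH.hom_eq_one ⟨x, hL0H hx⟩).1 (hfix ⟨x, hL0H hx⟩ hx)
    have h1 : fK.img L0 = ⊥ := (fK.img_eq_bot (hL0L.trans hLX)).2 hL0K
    rw [fK.img_commutator hLX,
      commutator_alt hα ((fK.dich hα hLX hLn).resolve_left hLK)] at h1
    have := two_mul_card (α := α) (by omega)
    rw [h1, card_bot] at this
    have := Nat.self_le_factorial (Nat.card α)
    omega
  push Not at hdist
  obtain ⟨i, j, hij, hijk⟩ := hdist
  have hall : ∀ k, (f k).ker = (f i).ker := by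
    intro k
    rcases eq_or_ne k i with rfl | hk
    · rfl
    obtain ⟨s, hs, hsi, hsj⟩ := exists_alt_map (by omega : 4 ≤ Nat.card Δ) i j k hij (Ne.symm hk)
    obtain ⟨y, rfl⟩ := fH.alt hs
    ext q
    have hp : (y : G)⁻¹ * q * y ∈ P0 :=
      (mem_normalizer_iff'.1 (hPn y.2) _).2 (by simpa [mul_assoc] using q.2)
    have e : (q : G) = y * (⟨_, hp⟩ : ↥P0) * (y : G)⁻¹ := by simp [mul_assoc]
    have e1 := hequiv y j ⟨_, hp⟩ q e
    have e2 := hequiv y i ⟨_, hp⟩ q e
    rw [hsj] at e1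
    rw [hsi] at e2
    rw [e1, e2, hijk]
  have hPL : P0 ⊓ L = ⊥ := by
    refine (Subgroup.eq_bot_iff_forall _).2 fun x hx => ?_
    have h1 : (⟨x, hx.1⟩ : ↥P0) ∈ ⨅ k, (f k).ker := mem_iInf.2 fun k => by
      rw [hall k, ← hall b0]
      exact (hkerb _).2 hx.2
    rw [hinj, mem_bot] at h1
    exact congrArg Subtype.val h1
  -- `K ⊓ L` is central in `K`, hence trivial
  by_contra hQ
  haveI : Nontrivial ↥(K ⊓ L) := (nontrivial_iff_ne_bot _).2 hQ
  have hQn : X ≤ normalizer ((K ⊓ L : Subgroup G) : Set G) :=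
    le_trans (le_inf (hXH.trans hKn) hLn) inf_normalizer_le_normalizer_inf
  have hcomm : ∀ x ∈ K ⊓ L, ∀ y ∈ K ⊓ L, Commute x y := by
    intro x hx y hy
    refine commutatorElement_eq_one_iff_commute.1 (mem_bot.1 (hPL ▸ ⟨?_, ?_⟩))
    · exact commutator_mem_commutator hx.1 hy.1
    · exact commutator_le_self L (commutator_mem_commutator hx.2 hy.2)
  obtain ⟨t, ht, hdvd⟩ := Nat.exists_prime_and_dvd (n := Nat.card ↥(K ⊓ L))
    (Finite.one_lt_card_iff_nontrivial.2 inferInstance).ne'
  haveI := Fact.mk ht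
  obtain ⟨u, hu⟩ := exists_prime_orderOf_dvd_card' t hdvd
  let U : Subgroup G :=
    { carrier := {x | x ∈ K ⊓ L ∧ ∃ k : ℕ, x ^ t ^ k = 1}
      one_mem' := ⟨one_mem _, 0, by simp⟩
      mul_mem' := by
        rintro x y ⟨hx, k, hk⟩ ⟨hy, m, hm⟩
        refine ⟨mul_mem hx hy, k + m, ?_⟩
        rw [(hcomm x hx y hy).mul_pow, pow_add, pow_mul, hk, one_pow, one_mul, mul_comm, pow_mul, hm,
          one_pow]
      inv_mem' := fun {x} ⟨hx, k, hk⟩ => ⟨inv_mem hx, k, by rw [inv_pow, hk, inv_one]⟩ }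
  have hUX : U ≤ X := fun x hx => hKX hx.1.1
  have hUn : X ≤ normalizer (U : Set G) := by
    refine Cfsg.Agent.Lib.LocalChar.le_nz_iff.2 ?_
    rintro a ha x ⟨hx, k, hk⟩
    exact ⟨(mem_normalizer_iff.1 (hQn ha) x).1 hx, k, by rw [conj_pow, hk, mul_one, mul_inv_cancel]⟩
  have hUp : IsPGroup t ↥U := fun ⟨x, _, k, hk⟩ => ⟨k, Subtype.ext hk⟩
  have hU := rad t ht U hUX hUn hUp
  have hu' : (u : G) ∈ U := ⟨u.2, 1, by
    rw [pow_one, ← hu, ← orderOf_coe, pow_orderOf_eq_one]⟩
  rw [hU, mem_bot] at hu'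
  rw [show u = 1 from Subtype.ext hu', orderOf_one] at hu
  exact ht.one_lt.ne hu

end Cfsg.Agent.Lib.AltSubconstituent
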