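import Cfsg.Agent.Lib.AltSubconstituent.Core

/-!
Two conjugate maximal subgroups with trivial core acting as the alternating group on the cosets
of their intersection.
-/

set_option autoImplicit false
set_option linter.style.haveILetI false
set_option linter.unusedSectionVars false

namespace Cfsg.Agent.Lib.AltSubconstituent

open Subgroup Equiv
open Cfsg.Agent.Lib.ThompsonWielandt (cm cm_le cm_le_right le_normalizer_cm le_cm A1 A2
  index_normalCore_dvd Pair main locCore_inf_eq_bot)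
open Cfsg.Agent.Lib.Components.MaxLocal (locCore locCore_le le_normalizer_locCore locCore_isPGroup)
open Cfsg.Agent.Lib.Components (le_pCore)
open Cfsg.Agent.Lib.LocalChar (cj cj_cj cj_one cj_eq_of_mem_nz card_cj mem_cj)
open scoped Nat commutatorElement

variable {G : Type*} [Group G] [Finite G]

section

variable {α : Type*} [Fintype α] [DecidableEq α]

lemma Act.le_of_isPGroup {X K : Subgroup G} (f : Act X K α) (hn : 5 ≤ Nat.card α) {t : ℕ}
    [Fact t.Prime] {M : Subgroup G} (hM : M ≤ X) (hMn : X ≤ normalizer (M : Set G))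
    (hp : IsPGroup t ↥M) : M ≤ K := by
  refine (f.dich hn hM hMn).resolve_right fun h => ?_
  have h1 : IsPGroup t ↥(f.img M) := hp.comap_subtype.map f.hom
  have h2 : IsPGroup t ↥(alternatingGroup α) := h1.to_le h
  haveI := alternatingGroup.isSimpleGroup (α := α) hn
  haveI := h2.center_nontrivial
  rcases IsSimpleGroup.eq_bot_or_eq_top_of_normal (center ↥(alternatingGroup α)) inferInstance with e | e
  · exact (nontrivial_iff_ne_bot _).1 inferInstance e
  · exact not_comm_alt hn fun a b => mem_center_iff.1 (e.ge (mem_top b)) a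

end

section setting

variable {H N : Subgroup G} {g : G}

/-- The kernels meet trivially, and the second is conjugate to the first. -/
theorem main_inf (hA : IsCoatom H) (hB : IsCoatom N) (hne : H ≠ N) (hcA : H.normalCore = ⊥)
    (hcB : N.normalCore = ⊥) (hg : cj g H = N)
    (hlc : ∀ t : ℕ, Nat.card ↥(locCore t H) = Nat.card ↥(locCore t N)) {d : ℕ} (h6 : 6 ≤ d)
    (hdH : (H ⊓ N).relIndex H = d) (hdN : (H ⊓ N).relIndex N = d)
    (hbig : d ! ≤ 2 * (cm H (H ⊓ N)).relIndex H) (hK : cm H (H ⊓ N) ≠ ⊥) :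
    cm H (H ⊓ N) ⊓ cm N (H ⊓ N) = ⊥ ∧ cj g (cm H (H ⊓ N)) = cm N (H ⊓ N) ∧
      ¬ cm H (H ⊓ N) ≤ cm N (H ⊓ N) ∧ ¬ cm N (H ⊓ N) ≤ cm H (H ⊓ N) := by
  classical
  set X := H ⊓ N with hX
  set K := cm H X with hKdef
  set L := cm N X with hLdef
  have hA1 : A1 H N = K := rfl
  have hA1' : A1 N H = L := by rw [A1, inf_comm]
  have hXH : X ≤ H := inf_le_left
  have hXN : X ≤ N := inf_le_right
  have hKX : K ≤ X := cm_le_right H X
  have hLX : L ≤ X := cm_le_right N X
  have hHK : H ≤ normalizer (K : Set G) := le_normalizer_cm H X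
  have hNL : N ≤ normalizer (L : Set G) := le_normalizer_cm N X
  haveI := Fintype.ofFinite (↥H ⧸ X.subgroupOf H)
  have hcΔ : Nat.card (↥H ⧸ X.subgroupOf H) = d := hdH
  let fH : Act H K (↥H ⧸ X.subgroupOf H) := cosetAct (by rw [hdH]; exact hbig)
  let b0 : ↥H ⧸ X.subgroupOf H := ((1 : ↥H) : ↥H ⧸ X.subgroupOf H)
  have hcα : Nat.card {i : ↥H ⧸ X.subgroupOf H // i ≠ b0} + 1 = d := by
    rw [← hcΔ, Nat.card_eq_fintype_card, Nat.card_eq_fintype_card, Fintype.card_subtype_compl,
      Fintype.card_subtype_eq]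
    have : 0 < Fintype.card (↥H ⧸ X.subgroupOf H) := Fintype.card_pos_iff.2 ⟨b0⟩
    omega
  let fK : Act X K {i : ↥H ⧸ X.subgroupOf H // i ≠ b0} :=
    fH.res b0 hXH hKX (cosetAct_stab _)
  let L' := cj g K
  have fN : Act N L' (↥H ⧸ X.subgroupOf H) := hg ▸ fH.conj g
  have hL'n : N ≤ normalizer (L' : Set G) := by
    rw [← hg]
    exact (map_mono (f := (MulAut.conj g).toMonoidHom) hHK).trans (le_normalizer_map _)
  have hmax : ∀ U, U ≤ X → N ≤ normalizer (U : Set G) → U ≤ L := fun U h1 h2 =>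
    le_cm h1 (h1.trans hXN) h2
  have hboundL : L.relIndex N ∣ d ! := by
    have e : L.subgroupOf N = (X.subgroupOf N).normalCore :=
      comap_map_eq_self_of_injective N.subtype_injective _
    rw [relIndex, e, ← hdN]
    exact index_normalCore_dvd _
  have hLidx : L.relIndex X ≤ (d - 1)! := by
    have h1 := hboundL
    rw [← relIndex_mul_relIndex L X N hLX hXN, hdN, ← Nat.mul_factorial_pred (show d ≠ 0 by omega),
      mul_comm d] at h1
    exact Nat.le_of_dvd (Nat.factorial_pos _) (Nat.dvd_of_mul_dvd_mul_right (by omega) h1)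
  have hKidx : K.relIndex X ≤ (d - 1)! := by
    have e : K.subgroupOf H = (X.subgroupOf H).normalCore :=
      comap_map_eq_self_of_injective H.subtype_injective _
    have h1 : K.relIndex H ∣ d ! := by
      rw [relIndex, e, ← hdH]; exact index_normalCore_dvd _
    rw [← relIndex_mul_relIndex K X H hKX hXH, hdH, ← Nat.mul_factorial_pred (show d ≠ 0 by omega),
      mul_comm d] at h1
    exact Nat.le_of_dvd (Nat.factorial_pos _) (Nat.dvd_of_mul_dvd_mul_right (by omega) h1)
  -- no normal subgroups of prime power order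
  have rad : ∀ (t : ℕ), t.Prime → ∀ U : Subgroup G, U ≤ X → X ≤ normalizer (U : Set G) →
      IsPGroup t ↥U → U = ⊥ := by
    intro t ht U hU hUn hUp
    haveI := Fact.mk ht
    have hZ : locCore t X ≤ A1 H N := fK.le_of_isPGroup (by omega) (locCore_le t X)
      (le_normalizer_locCore t X) (locCore_isPGroup t X)
    have h0 : locCore t X = ⊥ := locCore_inf_eq_bot hA hB hne hcA hcB (hlc t) hZ
    refine le_bot_iff.1 (h0 ▸ fun x hx => ⟨⟨x, hU hx⟩, ?_, rfl⟩)
    exact le_pCore (N := U.subgroupOf X) (hN := normal_subgroupOf_of_le_normalizer hUn)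
      hUp.comap_subtype hx
  -- not both second cores are non-trivial
  have hnp : A2 H N = ⊥ ∨ A2 N H = ⊥ := by
    by_contra hc
    rw [not_or] at hc
    obtain ⟨p, hp, -, hgfs, -⟩ := main (⟨hA, hB, hne, hcA, hcB, hlc, hc.1, hc.2⟩ : Pair H N)
    haveI := Fact.mk hp
    have hKp : locCore p H ≤ K := fH.le_of_isPGroup (by omega) (locCore_le p H)
      (le_normalizer_locCore p H) (locCore_isPGroup p H)
    have h0 : locCore p H = ⊥ := rad p hp _ (hKp.trans hKX)
      (hXH.trans (le_normalizer_locCore p H)) (locCore_isPGroup p H)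
    have h1 : pCore p ↥H = ⊥ := (map_eq_bot_iff_of_injective _ H.subtype_injective).1 h0
    rw [h1] at hgfs
    have h2 := Cfsg.Agent.Lib.Components.centralizer_gfs_le (G := ↥H)
    rw [hgfs] at h2
    have h3 : (⊤ : Subgroup ↥H) ≤ ⊥ := le_trans (fun x _ => mem_centralizer_iff.2 fun y hy => by
      rw [mem_bot.1 (SetLike.mem_coe.1 hy), one_mul, mul_one]) h2
    have h4 : H = ⊥ := (Subgroup.eq_bot_iff_forall _).2 fun x hx =>
      congrArg Subtype.val (mem_bot.1 (h3 (mem_top (⟨x, hx⟩ : ↥H))))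
    exact hK (le_bot_iff.1 ((cm_le H X).trans h4.le))
  have hD : A2 H N = ⊥ → ∀ x, (∀ h ∈ H, x ∈ cj h (K ⊓ L)) → x = 1 := fun e x hx => by
    have := conj_inter_le_cm (inf_le_left.trans (cm_le H X)) hx
    rw [show cm H (K ⊓ L) = A2 H N by rw [A2, hA1, hA1'], e, mem_bot] at this
    exact this
  have hD' : A2 N H = ⊥ → ∀ x, (∀ h ∈ N, x ∈ cj h (L ⊓ K)) → x = 1 := fun e x hx => by
    have := conj_inter_le_cm (inf_le_left.trans (cm_le N X)) hx
    rw [show cm N (L ⊓ K) = A2 N H by rw [A2, hA1, hA1'], e, mem_bot] at this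
    exact this
  have hXK : X ≤ normalizer (K : Set G) := hXH.trans hHK
  have hXL : X ≤ normalizer (L : Set G) := hXN.trans hNL
  have hQn : X ≤ normalizer ((K ⊓ L : Subgroup G) : Set G) :=
    le_trans (le_inf hXK hXL) inf_normalizer_le_normalizer_inf
  have hsmall : (d - 1)! < Nat.card ↥(alternatingGroup (↥H ⧸ X.subgroupOf H)) := by
    have := card_alt_lt (Δ := ↥H ⧸ X.subgroupOf H) (by omega)
    rwa [hcΔ] at this
  have hsec : ∀ ψ : ↥(L ⊓ K) →* Perm (↥H ⧸ X.subgroupOf H),
      ¬ alternatingGroup (↥H ⧸ X.subgroupOf H) ≤ ψ.range := by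
    rcases hnp with e | e
    · refine no_section (by omega) (M := H) (B := K) (Q := K ⊓ L) inf_le_right hHK
        (hKX.trans hQn) inf_le_left ?_ (hD e)
      refine lt_of_le_of_lt ?_ hsmall
      rw [inf_relIndex_left]
      exact (relIndex_le_of_le_right hKX index_ne_zero_of_finite).trans hLidx
    · refine no_section (by omega) (M := N) (B := L) (Q := L ⊓ K) inf_le_left hNL
        (by rw [inf_comm]; exact hLX.trans hQn) inf_le_left ?_ (hD' e)
      refine lt_of_le_of_lt ?_ hsmall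
      rw [inf_relIndex_left]
      exact (relIndex_le_of_le_right hLX index_ne_zero_of_finite).trans hKidx
  have hLL : L = L' := ker_eq (by omega) (by omega) fN fK hXN hLX (by rw [hdN, hcΔ]) hNL hXK hL'n hmax
    (by rw [hcΔ]; exact Nat.le_of_dvd (Nat.factorial_pos _) hboundL) hsec
  have hcards : Nat.card ↥K = Nat.card ↥L := by rw [hLL]; exact (card_cj g K).symm
  have hnb : ∀ U : Subgroup G, U ≤ X → H ≤ normalizer (U : Set G) → N ≤ normalizer (U : Set G) →
      U = ⊥ := by
    intro U hU h1 h2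
    rcases eq_or_lt_of_le h1 with h | h
    · rcases eq_or_lt_of_le (h.symm ▸ h2 : N ≤ H) with e | e
      · exact absurd e.symm hne
      · exact absurd (hB.2 H e) hA.1
    · haveI : U.Normal := normalizer_eq_top_iff.1 (hA.2 _ h)
      exact le_bot_iff.1 (hcA ▸ normal_le_normalCore.2 (hU.trans hXH))
  have hKL : ¬ K ≤ L := fun h => by
    have e : K = L := eq_of_le_of_card_ge h hcards.ge
    exact hK (hnb K hKX hHK (e ▸ hNL))
  have hLK : ¬ L ≤ K := fun h => by
    have e : L = K := eq_of_le_of_card_ge h hcards.le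
    exact hK (hnb K hKX hHK (e ▸ hNL))
  refine ⟨?_, hLL.symm, hKL, hLK⟩
  have hbigN : d ! ≤ 2 * L.relIndex N := by
    refine hbig.trans_eq (congrArg (2 * ·) ?_)
    refine mul_left_cancel₀ (Nat.card_pos (α := ↥K)).ne' ?_
    rw [card_mul_relIndex (cm_le H X), hcards, card_mul_relIndex (cm_le N X), ← hg, card_cj]
  haveI := Fintype.ofFinite (↥N ⧸ X.subgroupOf N)
  let gN : Act N L (↥N ⧸ X.subgroupOf N) := cosetAct (by rw [hdN]; exact hbigN)
  let c0 : ↥N ⧸ X.subgroupOf N := ((1 : ↥N) : ↥N ⧸ X.subgroupOf N)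
  let gL : Act X L {i : ↥N ⧸ X.subgroupOf N // i ≠ c0} := gN.res c0 hXN hLX (cosetAct_stab _)
  have hcΔ' : Nat.card (↥N ⧸ X.subgroupOf N) = d := hdN
  have hcα' : Nat.card {i : ↥N ⧸ X.subgroupOf N // i ≠ c0} + 1 = d := by
    rw [← hcΔ', Nat.card_eq_fintype_card, Nat.card_eq_fintype_card, Fintype.card_subtype_compl,
      Fintype.card_subtype_eq]
    have : 0 < Fintype.card (↥N ⧸ X.subgroupOf N) := Fintype.card_pos_iff.2 ⟨c0⟩
    omega
  let e := Fintype.equivOfCardEq (α := {i : ↥H ⧸ X.subgroupOf H // i ≠ b0})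
    (β := {i : ↥N ⧸ X.subgroupOf N // i ≠ c0})
    (by rw [← Nat.card_eq_fintype_card, ← Nat.card_eq_fintype_card]; omega)
  let mv : ∀ {M : Subgroup G}, Act X M {i : ↥H ⧸ X.subgroupOf H // i ≠ b0} →
      Act X M {i : ↥N ⧸ X.subgroupOf N // i ≠ c0} := fun f =>
    { hom := e.permCongrHom.toMonoidHom.comp f.hom
      ker := by
        rw [← f.ker]
        ext x
        simp [MonoidHom.mem_ker]
      le := f.le
      alt := fun s hs => by
        have h1 : e.permCongrHom.symm s ∈ alternatingGroup _ := by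
          rw [Perm.mem_alternatingGroup] at hs ⊢
          rw [← hs]
          exact Perm.sign_permCongr e.symm s
        obtain ⟨x, hx⟩ := f.alt h1
        exact ⟨x, by
          show e.permCongrHom (f.hom x) = s
          rw [hx, MulEquiv.apply_symm_apply]⟩ }
  rcases hnp with he | he
  · exact inf_eq_bot (g := g) (α := {i : ↥N ⧸ X.subgroupOf N // i ≠ c0}) (by omega) (by omega) fH b0
      (cosetAct_stab _) (mv fK) gL hXH hHK hXL hLL.symm hLK hKL rad (hD he)
  · rw [inf_comm]
    exact inf_eq_bot (g := g⁻¹) (α := {i : ↥N ⧸ X.subgroupOf N // i ≠ c0}) (by omega) (by omega) gN c0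
      (cosetAct_stab _) gL (mv fK) hXN hNL hXK (by rw [hLL, cj_cj, inv_mul_cancel, cj_one]) hKL hLK
      rad (hD' he)

end setting

section structure_

variable {Δ α : Type*} [Fintype Δ] [DecidableEq Δ] [Fintype α] [DecidableEq α]

/-- The embedding of `H` in the product of two symmetric groups. -/
theorem exists_prod (hd6 : 6 ≤ Nat.card Δ) (hα : 5 ≤ Nat.card α) {H X K L : Subgroup G}
    (fH : Act H K Δ) (b0 : Δ) (stab : ∀ x : ↥H, fH.hom x b0 = b0 ↔ (x : G) ∈ X)
    (fL : Act X L α) (hXH : X ≤ H) (hKn : H ≤ normalizer (K : Set G))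
    (hLn : X ≤ normalizer (L : Set G)) (hLK : ¬ L ≤ K) (hKL : ¬ K ≤ L) (hQ : K ⊓ L = ⊥) :
    ∃ θ : ↥H →* Perm α, θ.range = fL.hom.range ∧ Function.Injective (fH.hom.prod θ) ∧
      alternatingGroup Δ ≤ θ.ker.map fH.hom ∧ alternatingGroup α ≤ fH.hom.ker.map θ := by
  have hKX : K ≤ X := fun x hx =>
    (stab ⟨x, fH.le hx⟩).1 (by rw [(fH.hom_eq_one ⟨x, fH.le hx⟩).2 hx]; rfl)
  have hLX : L ≤ X := fL.le
  haveI hCn : ((centralizer (K : Set G)).subgroupOf H).Normal :=
    normal_subgroupOf_of_le_normalizer (hKn.trans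
      (Cfsg.Agent.Lib.Coprime.normalizer_le_normalizer_centralizer _))
  set C0 := (centralizer (K : Set G)).subgroupOf H with hC0
  have hLC : L ≤ centralizer (K : Set G) := by
    refine commutator_eq_bot_iff_le_centralizer.1 (le_bot_iff.1 (hQ ▸ le_inf ?_ ?_))
    · exact le_normalizer_iff_commutator_le_right.1 (hLX.trans (hXH.trans hKn))
    · exact le_normalizer_iff_commutator_le_left.1 (hKX.trans hLn)
  have hCX : ∀ x : ↥X, (x : G) ∈ centralizer (K : Set G) → fL.hom x = 1 := by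
    intro x hx
    have h1 : fL.hom x ∈ centralizer (alternatingGroup α : Set (Perm α)) := by
      refine mem_centralizer_iff.2 fun s hs => ?_
      obtain ⟨y, hy, rfl⟩ := ((fL.dich hα hKX (hXH.trans hKn)).resolve_left hKL) hs
      rw [← map_mul, ← map_mul]
      exact congrArg fL.hom (Subtype.ext (mem_centralizer_iff.1 hx y hy))
    rwa [centralizer_alt hα, mem_bot] at h1
  let π : ↥X →* ↥H ⧸ C0 := (QuotientGroup.mk' C0).comp (inclusion hXH)
  have hCimg : alternatingGroup Δ ≤ C0.map fH.hom := by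
    have h1 : fH.img (centralizer (K : Set G) ⊓ H) = C0.map fH.hom := by
      rw [Act.img, inf_subgroupOf_right]
    rw [← h1]
    refine (fH.dich (by omega) inf_le_right ?_).resolve_left fun h => hLK fun x hx =>
      h ⟨hLC hx, hXH (hLX hx)⟩
    exact le_trans (le_inf (hKn.trans (Cfsg.Agent.Lib.Coprime.normalizer_le_normalizer_centralizer _))
      le_normalizer) inf_normalizer_le_normalizer_inf
  have hπ : Function.Surjective π := by
    intro q
    obtain ⟨h, rfl⟩ := QuotientGroup.mk'_surjective C0 q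
    obtain ⟨s, hs, hsb⟩ := exists_alt_move (by omega : 4 ≤ Nat.card Δ) b0 (fH.hom h b0)
    obtain ⟨c, hc, rfl⟩ := hCimg hs
    have hm : ((c⁻¹ * h : ↥H) : G) ∈ X := (stab _).1 (by
      rw [map_mul, map_inv, Perm.mul_apply, Perm.inv_eq_iff_eq, hsb])
    refine ⟨⟨_, hm⟩, ?_⟩
    show ((c⁻¹ * h : ↥H) : ↥H ⧸ C0) = (h : ↥H ⧸ C0)
    rw [QuotientGroup.mk_mul, (QuotientGroup.eq_one_iff _).2 (inv_mem hc), one_mul]
  have hker : π.ker ≤ fL.hom.ker := fun x hx => by
    have h1 : inclusion hXH x ∈ C0 := (QuotientGroup.eq_one_iff _).1 hx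
    exact hCX x h1
  let θ : ↥H →* Perm α := (π.liftOfSurjective hπ ⟨fL.hom, hker⟩).comp (QuotientGroup.mk' C0)
  have hθX : ∀ x : ↥X, θ (inclusion hXH x) = fL.hom x := fun x =>
    π.liftOfRightInverse_comp_apply _ (Function.rightInverse_surjInv hπ) ⟨fL.hom, hker⟩ x
  have hθC : ∀ x : ↥H, x ∈ C0 → θ x = 1 := fun x hx => by
    show (π.liftOfSurjective hπ ⟨fL.hom, hker⟩) (QuotientGroup.mk' C0 x) = 1
    rw [(QuotientGroup.eq_one_iff x).2 hx |> fun e => (show QuotientGroup.mk' C0 x = 1 from e), map_one]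
  refine ⟨θ, ?_, ?_, hCimg.trans (map_mono fun x hx => hθC x hx), ?_⟩
  · refine le_antisymm ?_ ?_
    · rintro _ ⟨x, rfl⟩
      obtain ⟨y, hy⟩ := hπ (QuotientGroup.mk' C0 x)
      refine ⟨y, ?_⟩
      rw [← hθX]
      show (π.liftOfSurjective hπ ⟨fL.hom, hker⟩) (π y) = _
      rw [hy]; rfl
    · rintro _ ⟨y, rfl⟩
      exact ⟨_, hθX y⟩
  · refine (injective_iff_map_eq_one _).2 fun x hx => ?_
    have h1 : fH.hom x = 1 := congrArg Prod.fst hx
    have h2 : θ x = 1 := congrArg Prod.snd hx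
    have hxK : (x : G) ∈ K := (fH.hom_eq_one x).1 h1
    rw [show x = inclusion hXH ⟨x, hKX hxK⟩ from rfl, hθX, fL.hom_eq_one] at h2
    exact Subtype.ext (mem_bot.1 (hQ ▸ ⟨hxK, h2⟩ : (x : G) ∈ (⊥ : Subgroup G)))
  · refine ((fL.dich hα hKX (hXH.trans hKn)).resolve_left hKL).trans ?_
    rintro _ ⟨y, hy, rfl⟩
    exact ⟨inclusion hXH y, (fH.hom_eq_one _).2 hy, hθX y⟩

end structure_

section classify

variable {Δ α : Type*} [Fintype Δ] [DecidableEq Δ] [Fintype α] [DecidableEq α]

/-- The product of the signs. -/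
def signs (Δ α : Type*) [Fintype Δ] [DecidableEq Δ] [Fintype α] [DecidableEq α] :
    Perm Δ × Perm α →* ℤˣ :=
  (Perm.sign.comp (MonoidHom.fst (Perm Δ) (Perm α))) * (Perm.sign.comp (MonoidHom.snd (Perm Δ) (Perm α)))

theorem classify {R : Subgroup (Perm Δ × Perm α)} [Nontrivial Δ]
    (hA : ∀ s ∈ alternatingGroup Δ, (s, (1 : Perm α)) ∈ R)
    (hB : ∀ t ∈ alternatingGroup α, ((1 : Perm Δ), t) ∈ R)
    (h1 : R.map (MonoidHom.fst _ _) = ⊤) (h2 : R.map (MonoidHom.snd _ _) = ⊤) :
    R = ⊤ ∨ R = (signs Δ α).ker := by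
  have hAB : ∀ s t, s ∈ alternatingGroup Δ → t ∈ alternatingGroup α → (s, t) ∈ R := fun s t hs ht => by
    simpa using mul_mem (hA s hs) (hB t ht)
  by_cases hc : ∀ x ∈ R, Perm.sign x.1 = Perm.sign x.2
  · right
    ext ⟨s, t⟩
    have e : ∀ a b : ℤˣ, a * b = 1 ↔ a = b := fun a b => by
      rw [mul_eq_one_iff_eq_inv, Int.units_inv_eq_self]
    show _ ↔ Perm.sign s * Perm.sign t = 1
    rw [e]
    refine ⟨fun h => hc _ h, fun h => ?_⟩
    rcases Int.units_eq_one_or (Perm.sign s) with hs | hs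
    · exact hAB s t hs (Perm.mem_alternatingGroup.2 (h.symm.trans hs))
    · obtain ⟨⟨a, b⟩, hab, rfl⟩ := h1.ge (mem_top s)
      have hb : Perm.sign a = Perm.sign b := hc _ hab
      have h3 : ((1 : Perm Δ), b⁻¹ * t) ∈ R := hB _ (by
        show Perm.sign (b⁻¹ * t) = 1
        rw [map_mul, map_inv, ← hb, ← show Perm.sign a = Perm.sign t from h, inv_mul_cancel])
      simpa using mul_mem hab h3
  · left
    push Not at hc
    obtain ⟨⟨a, b⟩, hab, hne⟩ := hc
    rw [eq_top_iff]
    rintro ⟨s, t⟩ -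
    have key1 : ∀ s : Perm Δ, (s, (1 : Perm α)) ∈ R → s ∉ alternatingGroup Δ →
        ∀ u : Perm Δ, (u, (1 : Perm α)) ∈ R := by
      intro s hs hodd u
      rcases Int.units_eq_one_or (Perm.sign u) with hu | hu
      · exact hA u hu
      · have h3 : (u * s⁻¹, (1 : Perm α)) ∈ R := hA _ (by
          show Perm.sign (u * s⁻¹) = 1
          rw [map_mul, map_inv, hu, (Int.units_eq_one_or (Perm.sign s)).resolve_left hodd]
          rfl)
        simpa using mul_mem h3 hs
    rcases Int.units_eq_one_or (Perm.sign b) with hb | hb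
    · have ha : (a, (1 : Perm α)) ∈ R := by simpa using mul_mem hab (hB b⁻¹ (inv_mem hb))
      have hall := key1 a ha (fun e => hne (Eq.trans e hb.symm))
      obtain ⟨⟨c, e⟩, hce, rfl⟩ := h2.ge (mem_top t)
      simpa using mul_mem (hall (s * c⁻¹)) hce
    · have ha : Perm.sign a = 1 := (Int.units_eq_one_or _).resolve_right fun e => hne (e.trans hb.symm)
      have hb1 : ((1 : Perm Δ), b) ∈ R := by simpa using mul_mem (hA a⁻¹ (inv_mem ha)) hab
      have hall : ∀ u : Perm α, ((1 : Perm Δ), u) ∈ R := by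
        intro u
        rcases Int.units_eq_one_or (Perm.sign u) with hu | hu
        · exact hB u hu
        · have h3 : ((1 : Perm Δ), u * b⁻¹) ∈ R := hB _ (by
            show Perm.sign (u * b⁻¹) = 1
            rw [map_mul, map_inv, hu, hb]; rfl)
          simpa using mul_mem h3 hb1
      obtain ⟨⟨c, e⟩, hce, rfl⟩ := h1.ge (mem_top s)
      simpa using mul_mem hce (hall (e⁻¹ * t))

end classify

end Cfsg.Agent.Lib.AltSubconstituent
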