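import Cfsg.Agent.Lib.SmallSimple.SubgroupsAltEight

/-!
Subgroups of symmetric groups that contain the alternating group, and subdirect products of
simple groups.
-/

set_option autoImplicit false
set_option linter.style.haveILetI false

namespace Cfsg.Agent.Lib.AltSubconstituent

open Subgroup Equiv
open scoped Nat commutatorElement

section perm

variable {α : Type*} [Fintype α] [DecidableEq α]

theorem normal_dichotomy (hn : 5 ≤ Nat.card α) {R N : Subgroup (Perm α)}
    (hR : alternatingGroup α ≤ R) (hN : N ≤ R) (hnorm : R ≤ normalizer (N : Set (Perm α))) :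
    N = ⊥ ∨ alternatingGroup α ≤ N := by
  haveI : Nontrivial α := Finite.one_lt_card_iff_nontrivial.1 (by omega)
  rcases Cfsg.Agent.Lib.SmallSimple.AltEight.cases_of_alt_le hR with rfl | rfl
  · haveI := alternatingGroup.isSimpleGroup (α := α) hn
    haveI : (N.subgroupOf (alternatingGroup α)).Normal := normal_subgroupOf_of_le_normalizer hnorm
    rcases IsSimpleGroup.eq_bot_or_eq_top_of_normal _ this with h | h
    · left
      rw [subgroupOf_eq_bot] at h
      exact le_bot_iff.1 (le_inf le_rfl hN |>.trans h.le_bot)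
    · exact Or.inr (subgroupOf_eq_top.1 h)
  · haveI : N.Normal := normalizer_eq_top_iff.1 (top_le_iff.1 hnorm)
    rcases eq_or_ne N ⊥ with h | h
    · exact Or.inl h
    · exact Or.inr (Perm.alternatingGroup_le_of_normal hn ((nontrivial_iff_ne_bot N).2 h))

theorem two_mul_card (hn : 2 ≤ Nat.card α) :
    2 * Nat.card ↥(alternatingGroup α) = (Nat.card α)! := by
  haveI : Nontrivial α := Finite.one_lt_card_iff_nontrivial.1 (by omega)
  rw [two_mul_nat_card_alternatingGroup, Nat.card_perm]

theorem commutator_alt (hn : 5 ≤ Nat.card α) {R : Subgroup (Perm α)}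
    (hR : alternatingGroup α ≤ R) : ⁅R, R⁆ = alternatingGroup α := by
  refine le_antisymm ?_ ?_
  · refine le_trans (commutator_mono le_top le_top) ?_
    exact alternatingGroup.commutator_perm_le
  · conv_lhs => rw [← commutator_alternatingGroup_eq_self hn]
    exact commutator_mono hR hR

theorem not_comm_alt (hn : 5 ≤ Nat.card α) :
    ¬ ∀ a b : alternatingGroup α, a * b = b * a := by
  intro h
  have h1 : ⁅alternatingGroup α, alternatingGroup α⁆ = ⊥ :=
    commutator_eq_bot_iff_le_centralizer.2 fun a ha => mem_centralizer_iff.2 fun b hb =>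
      congrArg Subtype.val (h ⟨b, hb⟩ ⟨a, ha⟩)
  rw [commutator_alternatingGroup_eq_self hn] at h1
  have h2 := two_mul_card (α := α) (by omega)
  rw [h1, card_bot] at h2
  have := Nat.self_le_factorial (Nat.card α)
  omega

theorem centralizer_alt (hn : 5 ≤ Nat.card α) :
    centralizer (alternatingGroup α : Set (Perm α)) = ⊥ := by
  rcases normal_dichotomy hn (R := ⊤) le_top le_top
    (le_top.trans_eq (normalizer_eq_top_iff.2
      (inferInstance : (centralizer (alternatingGroup α : Set (Perm α))).Normal)).symm) with h | h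
  · exact h
  · exact absurd (fun a b : alternatingGroup α => Subtype.ext
      (mem_centralizer_iff.1 (h b.2) a a.2)) (not_comm_alt hn)

/-- A subgroup of small index contains the alternating group. -/
theorem alt_le_of_relIndex_lt (hn : 5 ≤ Nat.card α) {R U : Subgroup (Perm α)}
    (hR : alternatingGroup α ≤ R) (h : U.relIndex R < Nat.card α) : alternatingGroup α ≤ U := by
  have h0 : U.relIndex R ≠ 0 := index_ne_zero_of_finite
  rcases Cfsg.Agent.Lib.SmallSimple.AltEight.index_cases (α := α) (Nat.card_eq_fintype_card).symm hn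
    (U.subgroupOf (alternatingGroup α)) with h1 | h1
  · exact subgroupOf_eq_top.1 h1
  · have h2 : U.relIndex (alternatingGroup α) ≤ U.relIndex R := relIndex_le_of_le_right hR h0
    rw [relIndex] at h2
    omega

theorem large_step (hn : 5 ≤ Nat.card α) {U : Type*} [Group U] [Finite U] (ψ : U →* Perm α)
    {B M : Subgroup U} [hB : B.Normal] [hM : M.Normal] (ih : alternatingGroup α ≤ M.map ψ)
    (hb : B.index < Nat.card ↥(alternatingGroup α)) : alternatingGroup α ≤ (B ⊓ M).map ψ := by
  have hle : (B ⊓ M).map ψ ≤ M.map ψ := map_mono inf_le_right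
  have h1 : M ≤ normalizer ((B ⊓ M : Subgroup U) : Set U) :=
    le_top.trans_eq (normalizer_eq_top_iff.2 (inferInstance : (B ⊓ M).Normal)).symm
  have hnz : M.map ψ ≤ normalizer ((B ⊓ M).map ψ : Set (Perm α)) :=
    (map_mono (f := ψ) h1).trans (le_normalizer_map ψ)
  refine (normal_dichotomy hn ih hle hnz).resolve_left fun h => ?_
  rw [Subgroup.map_eq_bot_iff] at h
  have h4 := card_le_of_le ih
  rw [← relIndex_ker] at h4
  have h2 : ψ.ker.relIndex M ≤ (B ⊓ M).relIndex M := relIndex_le_of_le_left h index_ne_zero_of_finite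
  have h3 : (B ⊓ M).relIndex M ≤ B.index := by
    rw [inf_relIndex_right, ← relIndex_top_right]
    exact relIndex_le_of_le_right le_top index_ne_zero_of_finite
  omega

/-- A group with an alternating section has a large quotient among given ones. -/
theorem exists_large_index (hn : 5 ≤ Nat.card α) {U : Type*} [Group U] [Finite U]
    (ψ : U →* Perm α) (hψ : alternatingGroup α ≤ ψ.range) {ι : Type*} [Finite ι]
    (Q : ι → Subgroup U) [∀ i, (Q i).Normal] (hQ : ⨅ i, Q i = ⊥) :
    ∃ i, Nat.card ↥(alternatingGroup α) ≤ (Q i).index := by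
  classical
  haveI := Fintype.ofFinite ι
  by_contra hc
  push Not at hc
  have key : ∀ F : Finset ι, alternatingGroup α ≤ (⨅ i ∈ F, Q i).map ψ := by
    intro F
    induction F using Finset.induction_on with
    | empty => simpa [← MonoidHom.range_eq_map] using hψ
    | @insert a F ha ih =>
      rw [Finset.iInf_insert]
      haveI hM : (⨅ i ∈ F, Q i).Normal :=
        normal_iInf_normal fun i => normal_iInf_normal fun _ => inferInstance
      exact large_step hn ψ ih (hc a)
  have h1 := key Finset.univ
  simp only [Finset.mem_univ, iInf_pos, hQ, Subgroup.map_bot, le_bot_iff] at h1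
  have h2 := two_mul_card (α := α) (by omega)
  rw [h1, card_bot] at h2
  have := Nat.self_le_factorial (Nat.card α)
  omega

end perm

section subdirect

variable {P S : Type*} [Group P] [Finite P] [Group S] [IsSimpleGroup S] {ι : Type*}

/-- The common kernel of all but one projection. -/
def others (f : ι → P →* S) (i : ι) : Subgroup P := ⨅ j : {j // j ≠ i}, (f j.1).ker

instance others_normal (f : ι → P →* S) (i : ι) : (others f i).Normal :=
  normal_iInf_normal fun _ => inferInstance

variable {f : ι → P →* S} (hS : ¬ ∀ a b : S, a * b = b * a) (surj : ∀ i, Function.Surjective (f i))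

include hS surj in
theorem map_iInf_ker (dist : ∀ i j, i ≠ j → (f i).ker ≠ (f j).ker) (i : ι) :
    ∀ F : Finset ι, i ∉ F → (⨅ j ∈ F, (f j).ker).map (f i) = ⊤ := by
  classical
  intro F
  induction F using Finset.induction_on with
  | empty => intro _; simpa [← MonoidHom.range_eq_map] using MonoidHom.range_eq_top.2 (surj i)
  | @insert a F ha ih =>
    intro hi
    rw [Finset.mem_insert, not_or] at hi
    rw [Finset.iInf_insert]
    set M := ⨅ j ∈ F, (f j).ker
    haveI hM : M.Normal := normal_iInf_normal fun j => normal_iInf_normal fun _ => inferInstance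
    haveI : (((f a).ker ⊓ M).map (f i)).Normal := Normal.map inferInstance _ (surj i)
    rcases IsSimpleGroup.eq_bot_or_eq_top_of_normal _ this with h | h
    · exfalso
      have h1 : ((f a).ker).map (f i) = ⊤ := by
        haveI : (((f a).ker).map (f i)).Normal := Normal.map inferInstance _ (surj i)
        rcases IsSimpleGroup.eq_bot_or_eq_top_of_normal _ this with h' | h'
        · exfalso
          rw [Subgroup.map_eq_bot_iff] at h'
          refine dist i a hi.1 (le_antisymm ?_ h')
          haveI : ((f i).ker.map (f a)).Normal := Normal.map inferInstance _ (surj a)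
          rcases IsSimpleGroup.eq_bot_or_eq_top_of_normal _ this with h2 | h2
          · rwa [Subgroup.map_eq_bot_iff] at h2
          · exfalso
            have h3 : (f i).ker = ⊤ := by
              rw [eq_top_iff]
              intro x _
              obtain ⟨y, hy, hxy⟩ := (h2.ge (mem_top (f a x)) : f a x ∈ (f i).ker.map (f a))
              have h4 : y⁻¹ * x ∈ (f a).ker := by
                rw [MonoidHom.mem_ker, map_mul, map_inv, hxy, inv_mul_cancel]
              simpa using mul_mem hy (h' h4)
            refine hS fun u v => ?_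
            obtain ⟨x, rfl⟩ := surj i u
            obtain ⟨y, rfl⟩ := surj i v
            rw [MonoidHom.mem_ker.1 (h3.ge (mem_top x)), one_mul, mul_one]
        · exact h'
      have h2 : ⁅(⊤ : Subgroup S), (⊤ : Subgroup S)⁆ = ⊥ := by
        have h5 : (⁅(f a).ker, M⁆).map (f i) ≤ ((f a).ker ⊓ M).map (f i) :=
          map_mono (commutator_le_inf _ _)
        rw [map_commutator, h1, ih hi.2, h] at h5
        exact le_bot_iff.1 h5
      rw [commutator_eq_bot_iff_le_centralizer] at h2
      exact hS fun u v => mem_centralizer_iff.1 (h2 (mem_top v)) u (mem_top u)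
    · exact h

include hS surj in
theorem others_map [Finite ι] (dist : ∀ i j, i ≠ j → (f i).ker ≠ (f j).ker) (i : ι) :
    (others f i).map (f i) = ⊤ := by
  classical
  haveI := Fintype.ofFinite ι
  refine top_le_iff.1 ((map_iInf_ker hS surj dist i (Finset.univ.erase i) (by simp)).ge.trans
    (map_mono ?_))
  exact le_iInf fun j => iInf₂_le j.1 (by simpa using j.2)

theorem others_inj (hinj : ⨅ i, (f i).ker = ⊥) (i : ι) {x : P} (hx : x ∈ others f i)
    (h1 : f i x = 1) : x = 1 := by
  rw [← mem_bot, ← hinj, mem_iInf]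
  intro j
  rcases eq_or_ne j i with rfl | h
  · exact h1
  · exact mem_iInf.1 hx ⟨j, h⟩

include hS surj in
theorem others_card [Finite ι] (dist : ∀ i j, i ≠ j → (f i).ker ≠ (f j).ker)
    (hinj : ⨅ i, (f i).ker = ⊥) (i : ι) : Nat.card ↥(others f i) = Nat.card S := by
  rw [← Nat.card_congr (topEquiv (G := S)).toEquiv, ← others_map hS surj dist i]
  refine Nat.card_congr (Equiv.ofBijective (fun x => ⟨f i x.1, x.1, x.2, rfl⟩) ⟨?_, ?_⟩)
  · intro x y hxy
    have h1 : (x.1)⁻¹ * y.1 = 1 := others_inj hinj i (mul_mem (inv_mem x.2) y.2) (by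
      rw [map_mul, map_inv, show f i x.1 = f i y.1 from congrArg Subtype.val hxy, inv_mul_cancel])
    exact Subtype.ext (inv_mul_eq_one.1 h1)
  · rintro ⟨_, x, hx, rfl⟩
    exact ⟨⟨x, hx⟩, rfl⟩

include hS surj in
/-- In a subdirect product of simple groups, small subnormal subgroups are normal. -/
theorem normal_of_subnormal [Finite ι] (dist : ∀ i j, i ≠ j → (f i).ker ≠ (f j).ker)
    (hinj : ⨅ i, (f i).ker = ⊥) {M W : Subgroup P} [M.Normal] (hWM : W ≤ M)
    (hn : M ≤ normalizer (W : Set P)) (hcard : Nat.card ↥W = Nat.card S) : W.Normal := by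
  have hW1 : W ≠ ⊥ := fun e => by
    rw [e, card_bot] at hcard
    haveI := (Nat.card_eq_one_iff_unique.1 hcard.symm).1
    exact hS fun a b => Subsingleton.elim _ _
  obtain ⟨j, hj⟩ : ∃ j, ¬ W ≤ (f j).ker := by
    by_contra hc
    push Not at hc
    exact hW1 (le_bot_iff.1 (hinj ▸ le_iInf hc))
  set V := others f j
  have hV := others_map hS surj dist j
  have hcomm : ∀ {A : Subgroup P}, A.map (f j) = ⊤ → ∀ {B : Subgroup P}, B.map (f j) ≠ ⊥ →
      (⁅A, B⁆).map (f j) ≠ ⊥ := by
    intro A hA B hB e
    rw [map_commutator, hA, commutator_eq_bot_iff_le_centralizer] at e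
    obtain ⟨b, hb, hb1⟩ := (Subgroup.bot_or_exists_ne_one _).resolve_left hB
    have hc : b ∈ center S := mem_center_iff.2 fun u => (mem_centralizer_iff.1 (e (mem_top u)) b hb).symm
    rcases IsSimpleGroup.eq_bot_or_eq_top_of_normal (center S) inferInstance with h | h
    · exact hb1 (mem_bot.1 (h ▸ hc))
    · exact hS fun u v => (mem_center_iff.1 (h.ge (mem_top v)) u)
  have hWj : W.map (f j) ≠ ⊥ := fun e => hj ((Subgroup.map_eq_bot_iff _).1 e)
  have hVM : V ≤ M := by
    have h1 : (V ⊓ M).map (f j) = ⊤ := by
      haveI : ((V ⊓ M).map (f j)).Normal := Normal.map inferInstance _ (surj j)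
      rcases IsSimpleGroup.eq_bot_or_eq_top_of_normal _ this with h | h
      · refine absurd (le_bot_iff.1 ((map_mono (commutator_le_inf V M)).trans h.le)) (hcomm hV ?_)
        exact ne_bot_of_le_ne_bot hWj (map_mono hWM)
      · exact h
    intro x hx
    obtain ⟨y, ⟨hyV, hyM⟩, hxy⟩ := (h1.ge (mem_top (f j x)) : f j x ∈ (V ⊓ M).map (f j))
    have h2 : y⁻¹ * x = 1 := others_inj hinj j (mul_mem (inv_mem hyV) hx) (by
      rw [map_mul, map_inv, hxy, inv_mul_cancel])
    rwa [← inv_mul_eq_one.1 h2]
  have hint : ⁅V, W⁆ ≤ V ⊓ W := le_inf (commutator_le_left _ _)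
    (le_normalizer_iff_commutator_le_right.1 (hVM.trans hn))
  have hfull : (V ⊓ W).map (f j) = ⊤ := by
    haveI : ((V ⊓ W).map (f j)).Normal := by
      refine normalizer_eq_top_iff.1 (top_le_iff.1 ?_)
      have h1 : V ≤ normalizer ((V ⊓ W : Subgroup P) : Set P) :=
        le_trans (le_inf le_normalizer (hVM.trans hn)) inf_normalizer_le_normalizer_inf
      have h2 := (map_mono (f := f j) h1).trans (le_normalizer_map (f j))
      rwa [hV] at h2
    rcases IsSimpleGroup.eq_bot_or_eq_top_of_normal _ this with h | h
    · exact absurd (le_bot_iff.1 ((map_mono hint).trans h.le)) (hcomm hV hWj)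
    · exact h
  have hVW : V = W := by
    have h1 : Nat.card S ≤ Nat.card ↥(V ⊓ W) := by
      rw [← Nat.card_congr (topEquiv (G := S)).toEquiv, ← hfull]
      exact Nat.card_le_card_of_surjective _ ((f j).subgroupMap_surjective (V ⊓ W))
    have e1 : V ⊓ W = V := eq_of_le_of_card_ge inf_le_left (by rw [others_card hS surj dist hinj j]; exact h1)
    have e2 : V ⊓ W = W := eq_of_le_of_card_ge inf_le_right (by rw [hcard]; exact h1)
    exact e1.symm.trans e2
  exact hVW ▸ inferInstance

end subdirect

end Cfsg.Agent.Lib.AltSubconstituent
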