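import Cfsg.Agent.Lib.AltSubconstituent.Main

/-!
Unfaithful alternating or symmetric subconstituents of primitive groups.
-/

set_option autoImplicit false
set_option linter.style.haveILetI false
set_option linter.unusedSectionVars false

namespace Cfsg.Agent.Lib.AltSubconstituent

open Subgroup Equiv
open Cfsg.Agent.Lib.ThompsonWielandt (cm cm_le cm_le_right le_normalizer_cm stabilizer_data)
open Cfsg.Agent.Lib.LocalChar (cj card_cj)
open scoped Nat

variable {G : Type*} [Group G] [Finite G]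

lemma signs_kerEquiv {Δ α Δ' α' : Type*} [Fintype Δ] [DecidableEq Δ] [Fintype α] [DecidableEq α]
    [Fintype Δ'] [DecidableEq Δ'] [Fintype α'] [DecidableEq α'] (e : Δ ≃ Δ') (f : α ≃ α') :
    Nonempty (↥(signs Δ α).ker ≃* ↥(signs Δ' α').ker) := by
  let E : Perm Δ × Perm α ≃* Perm Δ' × Perm α' := MulEquiv.prodCongr e.permCongrHom f.permCongrHom
  refine ⟨(E.subgroupMap (signs Δ α).ker).trans (MulEquiv.subgroupCongr ?_)⟩
  ext x
  refine (mem_map_equiv (f := E)).trans ?_
  rw [MonoidHom.mem_ker, MonoidHom.mem_ker]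
  show Perm.sign (e.symm.permCongr x.1) * Perm.sign (f.symm.permCongr x.2) = 1 ↔ _
  rw [Perm.sign_permCongr, Perm.sign_permCongr]
  rfl

lemma alt_equiv {Δ Δ' : Type*} [Fintype Δ] [DecidableEq Δ] [Fintype Δ'] [DecidableEq Δ'] (e : Δ ≃ Δ') :
    Nonempty (↥(alternatingGroup Δ) ≃* ↥(alternatingGroup Δ')) := by
  refine ⟨(e.permCongrHom.subgroupMap (alternatingGroup Δ)).trans (MulEquiv.subgroupCongr ?_)⟩
  ext x
  refine (mem_map_equiv (f := e.permCongrHom)).trans ?_
  rw [Perm.mem_alternatingGroup, Perm.mem_alternatingGroup]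
  show Perm.sign (e.symm.permCongr x) = 1 ↔ _
  rw [Perm.sign_permCongr]

/-- The isomorphism type of `H`. -/
theorem iso_cases {H N : Subgroup G} {g : G} (hA : IsCoatom H) (hB : IsCoatom N) (hne : H ≠ N)
    (hcA : H.normalCore = ⊥) (hcB : N.normalCore = ⊥) (hg : cj g H = N)
    (hlc : ∀ t : ℕ, Nat.card ↥(Cfsg.Agent.Lib.Components.MaxLocal.locCore t H) =
      Nat.card ↥(Cfsg.Agent.Lib.Components.MaxLocal.locCore t N)) {d : ℕ} (h6 : 6 ≤ d)
    (hdH : (H ⊓ N).relIndex H = d) (hdN : (H ⊓ N).relIndex N = d)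
    (hK : cm H (H ⊓ N) ≠ ⊥) :
    (2 * (cm H (H ⊓ N)).relIndex H = d ! →
      Nonempty (↥H ≃* alternatingGroup (Fin d) × alternatingGroup (Fin (d - 1)))) ∧
    ((cm H (H ⊓ N)).relIndex H = d ! →
      Nonempty (↥H ≃* Perm (Fin d) × Perm (Fin (d - 1))) ∨
        Nonempty (↥H ≃* ↥(signs (Fin d) (Fin (d - 1))).ker)) := by
  classical
  by_cases hbig : d ! ≤ 2 * (cm H (H ⊓ N)).relIndex H
  swap
  · constructor <;> intro h <;> omega
  obtain ⟨hQ, hcj, hKL, hLK⟩ := main_inf hA hB hne hcA hcB hg hlc h6 hdH hdN hbig hK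
  set X := H ⊓ N with hX
  set K := cm H X
  set L := cm N X
  have hXH : X ≤ H := inf_le_left
  have hXN : X ≤ N := inf_le_right
  have hKH : K ≤ H := cm_le H X
  have hLN : L ≤ N := cm_le N X
  haveI := Fintype.ofFinite (↥H ⧸ X.subgroupOf H)
  haveI := Fintype.ofFinite (↥N ⧸ X.subgroupOf N)
  have hidx : K.relIndex H = L.relIndex N := by
    refine mul_left_cancel₀ (Nat.card_pos (α := ↥K)).ne' ?_
    rw [card_mul_relIndex hKH]
    conv_rhs => rw [← card_cj g K, hcj]
    rw [card_mul_relIndex hLN, ← hg, card_cj]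
  let fH : Act H K (↥H ⧸ X.subgroupOf H) := cosetAct (by rw [hdH]; exact hbig)
  let gN : Act N L (↥N ⧸ X.subgroupOf N) := cosetAct (by rw [hdN, ← hidx]; exact hbig)
  let b0 : ↥H ⧸ X.subgroupOf H := ((1 : ↥H) : ↥H ⧸ X.subgroupOf H)
  let c0 : ↥N ⧸ X.subgroupOf N := ((1 : ↥N) : ↥N ⧸ X.subgroupOf N)
  let fL : Act X L {i : ↥N ⧸ X.subgroupOf N // i ≠ c0} :=
    gN.res c0 hXN (cm_le_right N X) (cosetAct_stab _)
  have hcΔ : Nat.card (↥H ⧸ X.subgroupOf H) = d := hdH
  have hcΔ' : Nat.card (↥N ⧸ X.subgroupOf N) = d := hdN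
  have hcα : Nat.card {i : ↥N ⧸ X.subgroupOf N // i ≠ c0} = d - 1 := by
    rw [← hcΔ', Nat.card_eq_fintype_card, Nat.card_eq_fintype_card, Fintype.card_subtype_compl,
      Fintype.card_subtype_eq]
  haveI : Nontrivial (↥H ⧸ X.subgroupOf H) := Finite.one_lt_card_iff_nontrivial.1 (by omega)
  haveI : Nontrivial (↥N ⧸ X.subgroupOf N) := Finite.one_lt_card_iff_nontrivial.1 (by omega)
  haveI : Nontrivial {i : ↥N ⧸ X.subgroupOf N // i ≠ c0} := Finite.one_lt_card_iff_nontrivial.1 (by omega)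
  let eΔ : (↥H ⧸ X.subgroupOf H) ≃ Fin d := Finite.equivFinOfCardEq hcΔ
  let eα : {i : ↥N ⧸ X.subgroupOf N // i ≠ c0} ≃ Fin (d - 1) := Finite.equivFinOfCardEq hcα
  obtain ⟨θ, hθ, hinj, hA1, hB1⟩ := exists_prod (Δ := ↥H ⧸ X.subgroupOf H) (by omega) (by omega) fH b0
    (cosetAct_stab _) fL hXH (le_normalizer_cm H X) (hXN.trans (le_normalizer_cm N X)) hLK hKL hQ
  let Φ := fH.hom.prod θ
  let iso : ↥H ≃* ↥Φ.range := MonoidHom.ofInjective hinj
  have hmA : ∀ s ∈ alternatingGroup (↥H ⧸ X.subgroupOf H),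
      (s, (1 : Perm {i : ↥N ⧸ X.subgroupOf N // i ≠ c0})) ∈ Φ.range := fun s hs => by
    obtain ⟨x, hx, rfl⟩ := hA1 hs
    exact ⟨x, Prod.ext rfl hx⟩
  have hmB : ∀ t ∈ alternatingGroup {i : ↥N ⧸ X.subgroupOf N // i ≠ c0},
      ((1 : Perm (↥H ⧸ X.subgroupOf H)), t) ∈ Φ.range := fun t ht => by
    obtain ⟨x, hx, rfl⟩ := hB1 ht
    exact ⟨x, Prod.ext hx rfl⟩
  have hrH : Nat.card ↥fH.hom.range = K.relIndex H := by rw [← index_ker, fH.ker, relIndex]
  have hrN : Nat.card ↥gN.hom.range = L.relIndex N := by rw [← index_ker, gN.ker, relIndex]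
  have hiH := fH.hom.range.card_mul_index
  have hiN := gN.hom.range.card_mul_index
  rw [hrH, Nat.card_perm, hcΔ] at hiH
  rw [hrN, Nat.card_perm, hcΔ', ← hidx] at hiN
  constructor
  · intro h2
    have hR1 : fH.hom.range = alternatingGroup _ := Perm.eq_alternatingGroup_of_index_eq_two
      (Nat.eq_of_mul_eq_mul_left (show 0 < K.relIndex H by
        rcases Nat.eq_zero_or_pos (K.relIndex H) with e | e
        · exact absurd e index_ne_zero_of_finite
        · exact e) (by rw [hiH, ← h2, mul_comm]))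
    have hR1' : gN.hom.range = alternatingGroup _ := Perm.eq_alternatingGroup_of_index_eq_two
      (Nat.eq_of_mul_eq_mul_left (show 0 < K.relIndex H by
        rcases Nat.eq_zero_or_pos (K.relIndex H) with e | e
        · exact absurd e index_ne_zero_of_finite
        · exact e) (by rw [hiN, ← h2, mul_comm]))
    have hR2 : θ.range = alternatingGroup _ :=
      hθ.trans ((gN.res_range c0 hXN (cm_le_right N X) (cosetAct_stab _)).1 hR1')
    have hR : Φ.range = (alternatingGroup (↥H ⧸ X.subgroupOf H)).prod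
        (alternatingGroup {i : ↥N ⧸ X.subgroupOf N // i ≠ c0}) := by
      refine le_antisymm ?_ ?_
      · rintro _ ⟨x, rfl⟩
        exact ⟨hR1 ▸ ⟨x, rfl⟩, hR2 ▸ ⟨x, rfl⟩⟩
      · rintro ⟨s, t⟩ ⟨hs, ht⟩
        simpa using mul_mem (hmA s hs) (hmB t ht)
    obtain ⟨e1⟩ := alt_equiv eΔ
    obtain ⟨e2⟩ := alt_equiv eα
    exact ⟨(iso.trans (MulEquiv.subgroupCongr hR)).trans
      ((Subgroup.prodEquiv _ _).trans (MulEquiv.prodCongr e1 e2))⟩
  · intro h1
    have hR1 : fH.hom.range = ⊤ := eq_top_of_card_eq _ (by rw [hrH, Nat.card_perm, hcΔ, h1])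
    have hR1' : gN.hom.range = ⊤ := eq_top_of_card_eq _ (by rw [hrN, Nat.card_perm, hcΔ', ← hidx, h1])
    have hR2 : θ.range = ⊤ := hθ.trans ((gN.res_range c0 hXN (cm_le_right N X) (cosetAct_stab _)).2 hR1')
    rcases classify (R := Φ.range) hmA hmB (by rw [MonoidHom.map_range, MonoidHom.fst_comp_prod, hR1])
        (by rw [MonoidHom.map_range, MonoidHom.snd_comp_prod, hR2]) with h | h
    · exact Or.inl ⟨((iso.trans (MulEquiv.subgroupCongr h)).trans topEquiv).trans
        (MulEquiv.prodCongr eΔ.permCongrHom eα.permCongrHom)⟩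
    · obtain ⟨e⟩ := signs_kerEquiv eΔ eα
      exact Or.inr ⟨(iso.trans (MulEquiv.subgroupCongr h)).trans e⟩

/-- The subconstituent of a point. -/
theorem stabilizer_alt {Ω : Type*} [MulAction G Ω] [FaithfulSMul G Ω] [Finite Ω]
    (hprim : MulAction.IsPreprimitive G Ω) (a b : Ω) (d : ℕ)
    (hd : Nat.card (MulAction.orbit (MulAction.stabilizer G a) b) = d) (h6 : 6 ≤ d)
    (hunf : ¬ Function.Injective (MulAction.toPermHom (MulAction.stabilizer G a)
      (MulAction.orbit (MulAction.stabilizer G a) b))) :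
    ((MulAction.toPermHom (MulAction.stabilizer G a) (MulAction.orbit (MulAction.stabilizer G a) b)).range.index = 2 →
      Nonempty (MulAction.stabilizer G a ≃* alternatingGroup (Fin d) × alternatingGroup (Fin (d - 1)))) ∧
    ((MulAction.toPermHom (MulAction.stabilizer G a) (MulAction.orbit (MulAction.stabilizer G a) b)).range = ⊤ →
      Nonempty (MulAction.stabilizer G a ≃* Perm (Fin d) × Perm (Fin (d - 1))) ∨
        Nonempty (MulAction.stabilizer G a ≃* ↥(signs (Fin d) (Fin (d - 1))).ker)) := by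
  classical
  haveI := hprim.toIsPretransitive
  obtain ⟨hA, hB, hne, hcA, hcB, hcard, hX, hloc⟩ := stabilizer_data hprim hd (by omega)
  set H := MulAction.stabilizer G a with hH
  set N := MulAction.stabilizer G b with hN
  obtain ⟨g, hg⟩ := MulAction.exists_smul_eq G a b
  have hconj : cj g H = N := by
    rw [hN, ← hg, MulAction.stabilizer_smul_eq_stabilizer_map_conj]
  have hXN : (H ⊓ N).relIndex N = d := by
    have e1 := card_mul_relIndex (inf_le_left : H ⊓ N ≤ H)
    have e2 := card_mul_relIndex (inf_le_right : H ⊓ N ≤ N)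
    rw [hX, hcard, ← e2] at e1
    exact (mul_left_cancel₀ (Nat.card_pos (α := ↥(H ⊓ N))).ne' e1).symm
  set ph := MulAction.toPermHom ↥H (MulAction.orbit (↥H) b)
  have hker : ph.ker = (cm H (H ⊓ N)).subgroupOf H := by
    rw [cm, subgroupOf, comap_map_eq_self_of_injective H.subtype_injective]
    ext x
    rw [MonoidHom.mem_ker]
    constructor
    · intro hx y
      show ((y * x * y⁻¹ : ↥H) : G) ∈ H ⊓ N
      refine ⟨(y * x * y⁻¹).2, ?_⟩
      have h1 : x • (y⁻¹ • b) = y⁻¹ • b :=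
        congrArg Subtype.val (Equiv.Perm.ext_iff.1 hx ⟨y⁻¹ • b, MulAction.mem_orbit _ _⟩)
      show (y * x * y⁻¹) • b = b
      rw [mul_smul, mul_smul, h1, smul_inv_smul]
    · intro hx
      refine Equiv.ext fun p => Subtype.ext ?_
      obtain ⟨p, y, rfl⟩ := p
      show x • y • b = y • b
      have h1 := (hx y⁻¹).2
      change (y⁻¹ * x * y⁻¹⁻¹) • b = b at h1
      rwa [inv_inv, mul_smul, mul_smul, inv_smul_eq_iff] at h1
  have hK : cm H (H ⊓ N) ≠ ⊥ := fun e => hunf ((MonoidHom.ker_eq_bot_iff ph).1 (by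
    rw [hker, e, bot_subgroupOf]))
  have hrange : Nat.card ↥ph.range = (cm H (H ⊓ N)).relIndex H := by rw [← index_ker, hker, relIndex]
  have hcidx := ph.range.card_mul_index
  rw [hrange, Nat.card_perm, hd] at hcidx
  obtain ⟨r1, r2⟩ := iso_cases hA hB hne hcA hcB hconj hloc h6 hX hXN hK
  refine ⟨fun h => r1 ?_, fun h => r2 ?_⟩
  · rw [h] at hcidx; omega
  · rw [h, index_top, mul_one] at hcidx; exact hcidx

end Cfsg.Agent.Lib.AltSubconstituent
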